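import Mathlib

/-! Linear algebra for fixed spaces of elements of prime order. -/

set_option autoImplicit false
set_option linter.unusedSectionVars false

namespace Cfsg.Agent.FV

open Module Finset

theorem orb {I : Type*} [Fintype I] [DecidableEq I] {p : ℕ} (hp : p.Prime) (τ : Equiv.Perm I) (hτ : τ ^ p = 1) :
    ∃ R : Finset I, (∀ i, ∃ r ∈ R, ∃ j : ℕ, (τ ^ j) r = i) ∧
      p * R.card = Fintype.card I + (p - 1) * (univ.filter fun i => τ i = i).card := by
  classical
  by_cases h1 : τ = 1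
  · subst h1
    refine ⟨univ, fun i => ⟨i, mem_univ _, 0, rfl⟩, ?_⟩
    obtain ⟨n, rfl⟩ : ∃ n, p = n + 1 := ⟨p - 1, by have := hp.pos; omega⟩
    simp
    ring
  have := Fact.mk hp
  have ho : orderOf τ = p := orderOf_eq_prime hτ h1
  set H := Subgroup.zpowers τ
  have cH : Nat.card H = p := by rw [Nat.card_zpowers, ho]
  have B := MulAction.sum_card_fixedBy_eq_card_orbits_mul_card_group H I
  refine ⟨univ.image (Quotient.out : Quotient (MulAction.orbitRel H I) → I), fun i => ?_, ?_⟩
  · refine ⟨_, mem_image_of_mem _ (mem_univ (Quotient.mk _ i)), ?_⟩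
    have : (MulAction.orbitRel H I) i (Quotient.mk (MulAction.orbitRel H I) i).out :=
      (MulAction.orbitRel H I).symm (Quotient.mk_out (s := MulAction.orbitRel H I) i)
    obtain ⟨⟨g, hg⟩, e⟩ := this
    obtain ⟨j, rfl⟩ := (mem_powers_iff_mem_zpowers.2 hg)
    exact ⟨j, e⟩
  · rw [card_image_of_injective _ Quotient.out_injective, card_univ, mul_comm, ← cH, Nat.card_eq_fintype_card, ← B,
      ← Finset.add_sum_erase _ _ (mem_univ (1 : H))]
    congr 1
    · simp
    · rw [Finset.sum_congr rfl (g := fun _ => (univ.filter fun i => τ i = i).card), sum_const, card_erase_of_mem (mem_univ _),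
        card_univ, smul_eq_mul]
      intro g hg
      rw [← Fintype.card_subtype]
      refine Fintype.card_congr (Equiv.subtypeEquivRight fun i => ?_)
      have g1 : g ≠ 1 := ne_of_mem_erase hg
      have hm : (⟨τ, Subgroup.mem_zpowers τ⟩ : H) ∈ Subgroup.zpowers g := mem_zpowers_of_prime_card cH g1
      constructor
      · intro h
        have : Subgroup.zpowers g ≤ MulAction.stabilizer H i := Subgroup.zpowers_le.2 h
        exact this hm
      · intro h
        have : H ≤ MulAction.stabilizer (Equiv.Perm I) i := Subgroup.zpowers_le.2 h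
        exact this g.2

variable {k E : Type*} [Field k] [AddCommGroup E] [Module k E]

theorem indep {I : Type*} [DecidableEq I] (W : I → Submodule k E)
    (h : ∀ i j, i ≠ j → ∃ T : E →ₗ[k] E, (∀ l, ∀ v ∈ W l, T v ∈ W l) ∧ (∀ v ∈ W i, T v = 0) ∧
      ∀ v ∈ W j, T v = 0 → v = 0) (s : Finset I) :
    ∀ u : I → E, (∀ i ∈ s, u i ∈ W i) → ∑ i ∈ s, u i = 0 → ∀ i ∈ s, u i = 0 := by
  induction s using Finset.induction_on with
  | empty => simp
  | insert a s ha ih =>
    intro u hu e
    rw [sum_insert ha] at e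
    have key : ∀ j ∈ s, u j = 0 := fun j hj => by
      obtain ⟨T, h1, h2, h3⟩ := h a j fun c => ha (c ▸ hj)
      refine h3 _ (hu j (mem_insert_of_mem hj)) (ih (fun i => T (u i))
        (fun i hi => h1 _ _ (hu i (mem_insert_of_mem hi))) ?_ j hj)
      have := congrArg T e
      rwa [map_add, h2 _ (hu a (mem_insert_self _ _)), zero_add, map_sum, map_zero] at this
    intro i hi
    rcases mem_insert.1 hi with rfl | hi
    · rwa [sum_eq_zero key, add_zero] at e
    · exact key i hi

theorem dec [FiniteDimensional k E] {I : Type*} [Fintype I] [DecidableEq I] {p d : ℕ} (hp : p.Prime)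
    (τ : Equiv.Perm I) (hτ : τ ^ p = 1) (W : I → Submodule k E) (hd : ∀ i, finrank k (W i) = d)
    (sp : ∀ v, ∃ u : I → E, (∀ i, u i ∈ W i) ∧ ∑ i, u i = v)
    (ind : ∀ u : I → E, (∀ i, u i ∈ W i) → ∑ i, u i = 0 → ∀ i, u i = 0)
    (x : E →ₗ[k] E) (hx : ∀ i, ∀ v ∈ W i, x v ∈ W (τ i)) (C : Submodule k E) (hC : ∀ v ∈ C, x v = v) :
    finrank k E = Fintype.card I * d ∧ p ∣ Fintype.card I + (p - 1) * (univ.filter fun i => τ i = i).card ∧
      p * finrank k C ≤ d * (Fintype.card I + (p - 1) * (univ.filter fun i => τ i = i).card) := by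
  classical
  let L : ((i : I) → W i) →ₗ[k] E := ∑ i, (W i).subtype ∘ₗ LinearMap.proj i
  have hL : ∀ u, L u = ∑ i, (u i : E) := fun u => by simp [L]
  have bij : Function.Bijective L := ⟨(injective_iff_map_eq_zero L).2 fun u e => funext fun i =>
      Subtype.ext (ind (fun i => u i) (fun i => (u i).2) (hL u ▸ e) i), fun v => by
    obtain ⟨u, h1, h2⟩ := sp v
    exact ⟨fun i => ⟨u i, h1 i⟩, (hL _).trans h2⟩⟩
  let e := LinearEquiv.ofBijective L bij
  obtain ⟨R, h1, h2⟩ := orb hp τ hτ
  refine ⟨by rw [← e.finrank_eq, finrank_pi_fintype]; simp [hd], h2 ▸ dvd_mul_right _ _, ?_⟩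
  rw [← h2, mul_left_comm]
  refine Nat.mul_le_mul_left _ ?_
  let Φ : C →ₗ[k] ((r : R) → W r) := LinearMap.pi fun r => LinearMap.proj (r : I) ∘ₗ e.symm.toLinearMap ∘ₗ C.subtype
  have inj : Function.Injective Φ := (injective_iff_map_eq_zero Φ).2 fun v hv => by
    set c := e.symm v
    have hc : ∑ i, (c i : E) = v := by rw [← hL]; exact e.apply_symm_apply v
    have step : ∀ i, (c (τ i) : E) = x (c i) := fun i => by
      have := ind (fun i => c i - x (c (τ.symm i))) (fun i => sub_mem (c i).2 (by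
        simpa using hx _ _ (c (τ.symm i)).2)) (by
        rw [sum_sub_distrib, ← map_sum, Equiv.sum_comp τ.symm fun i => (c i : E), hc, hC _ v.2, sub_self]) (τ i)
      rwa [sub_eq_zero, τ.symm_apply_apply] at this
    have all : ∀ i, (c i : E) = 0 := fun i => by
      obtain ⟨r, hr, j, rfl⟩ := h1 i
      induction j with
      | zero => exact congrArg Subtype.val (congrFun hv ⟨r, hr⟩)
      | succ j ih => rw [pow_succ', Equiv.Perm.mul_apply, step, ih, map_zero]
    exact Subtype.ext (by rw [← hc, sum_eq_zero fun i _ => all i]; rfl)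
  have := LinearMap.finrank_le_finrank_of_injective inj
  rw [finrank_pi_fintype] at this
  simpa [hd, mul_comm] using this

theorem vander [FiniteDimensional k E] (C : Submodule k E) (x : E →ₗ[k] E) (hC : ∀ v ∈ C, x v = v)
    (a b c : Module.End k E) (ab : x * a = b * x) (bc : x * b = c * x) (h1 : a * b = b * a) (h2 : a * c = c * a)
    (i1 : Function.Injective (a - b)) (i2 : Function.Injective (a - c)) (i3 : Function.Injective (b - c)) :
    3 * finrank k C ≤ finrank k E := by
  let Φ : (C × C × C) →ₗ[k] E := C.subtype ∘ₗ LinearMap.fst _ _ _ +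
    a ∘ₗ C.subtype ∘ₗ LinearMap.fst _ _ _ ∘ₗ LinearMap.snd _ _ _ +
    (a * a) ∘ₗ C.subtype ∘ₗ LinearMap.snd _ _ _ ∘ₗ LinearMap.snd _ _ _
  have inj : Function.Injective Φ := (injective_iff_map_eq_zero Φ).2 fun ⟨u, v, w⟩ hv => by
    have e0 : (u : E) + a v + a (a w) = 0 := hv
    have xa : ∀ y, x (a y) = b (x y) := fun y => congrArg (· y) ab
    have xb : ∀ y, x (b y) = c (x y) := fun y => congrArg (· y) bc
    have c1 : ∀ y, a (b y) = b (a y) := fun y => congrArg (· y) h1
    have c2 : ∀ y, a (c y) = c (a y) := fun y => congrArg (· y) h2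
    have e1 : (u : E) + b v + b (b w) = 0 := by
      simpa only [map_add, xa, hC _ u.2, hC _ v.2, hC _ w.2, map_zero] using congrArg x e0
    have e2 : (u : E) + c v + c (c w) = 0 := by
      simpa only [map_add, xb, hC _ u.2, hC _ v.2, hC _ w.2, map_zero] using congrArg x e1
    have f1 : (v : E) + a w + b w = 0 := (injective_iff_map_eq_zero _).1 i1 _ (by
      simp only [LinearMap.sub_apply, map_add, c1]
      linear_combination (norm := abel1) e0 - e1)
    have f2 : (v : E) + a w + c w = 0 := (injective_iff_map_eq_zero _).1 i2 _ (by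
      simp only [LinearMap.sub_apply, map_add, c2]
      linear_combination (norm := abel1) e0 - e2)
    have w0 : (w : E) = 0 := (injective_iff_map_eq_zero _).1 i3 _ (by
      simp only [LinearMap.sub_apply]
      linear_combination (norm := abel1) f1 - f2)
    have v0 : (v : E) = 0 := by simpa [w0] using f1
    have u0 : (u : E) = 0 := by simpa [w0, v0] using e0
    exact Prod.ext (Subtype.ext u0) (Prod.ext (Subtype.ext v0) (Subtype.ext w0))
  have := LinearMap.finrank_le_finrank_of_injective inj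
  simp only [finrank_prod] at this
  omega

theorem endfix [FiniteDimensional k E] (x : Module.End k E) (h1 : x ≠ 1) (C : Submodule k E)
    (hC : ∀ v, v ∈ C ↔ x v = v) (D : Submodule k (E →ₗ[k] E)) (hD : ∀ φ, x * φ = φ * x → φ ∈ D) :
    finrank k C * finrank k C < finrank k D := by
  have eC : C = LinearMap.ker (x - 1) := by
    ext v
    simp [hC, sub_eq_zero]
  set R := LinearMap.range (x - 1)
  have hq : finrank k (E ⧸ R) = finrank k C := by
    have a := Submodule.finrank_quotient_add_finrank R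
    have b := LinearMap.finrank_range_add_finrank_ker (x - 1)
    rw [← eC] at b
    change finrank k R + _ = _ at b
    omega
  let Φ : ((E ⧸ R) →ₗ[k] C) →ₗ[k] (E →ₗ[k] E) :=
    (LinearMap.llcomp k E C E C.subtype) ∘ₗ (LinearMap.lcomp k C R.mkQ)
  have hΦ : ∀ ψ v, Φ ψ v = ψ (R.mkQ v) := fun _ _ => rfl
  have inj : Function.Injective Φ := (injective_iff_map_eq_zero Φ).2 fun ψ h => by
    ext v
    simpa [hΦ] using congrArg (· v) h
  have lt : LinearMap.range Φ < D := by
    refine lt_of_le_of_ne ?_ fun e => h1 ?_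
    · rintro _ ⟨ψ, rfl⟩
      refine hD _ (LinearMap.ext fun v => ?_)
      have : R.mkQ (x v) = R.mkQ v := by
        rw [← sub_eq_zero, ← map_sub]
        exact (Submodule.Quotient.mk_eq_zero R).2 ⟨v, rfl⟩
      simp only [Module.End.mul_apply, hΦ, this]
      exact (hC _).1 (ψ _).2
    · obtain ⟨ψ, hψ⟩ : (1 : Module.End k E) ∈ LinearMap.range Φ := e ▸ hD 1 (by simp)
      ext v
      have : v = Φ ψ v := by rw [hψ]; rfl
      rw [this, hΦ]
      exact (hC _).1 (ψ _).2
  have := Submodule.finrank_lt_finrank_of_lt lt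
  rwa [LinearMap.finrank_range_of_inj inj, finrank_linearMap, hq] at this

theorem arith {p q N a n c d F : ℕ} (hp : p.Prime) (h5 : 5 ≤ p) (hq : q.Prime) (hN : 2 ≤ N) (ha : 2 * a < N)
    (e : n * n = q ^ N * d) (hd : p ∣ q ^ N + (p - 1) * q ^ a) (l : p * F ≤ d * (q ^ N + (p - 1) * q ^ a))
    (hF : c * c < F) : 2 * c < n := by
  by_contra! hc
  obtain ⟨b, rfl⟩ : ∃ b, N = a + (b + 2) := ⟨N - a - 2, by omega⟩
  obtain ⟨t, rfl⟩ : ∃ t, p = t + 5 := ⟨p - 5, by omega⟩
  have hf : 0 < q ^ a := pow_pos hq.pos a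
  rw [pow_add q a] at e hd l
  have hs : q * q ∣ q ^ (b + 2) := ⟨q ^ b, by ring⟩
  have s0 : 0 < q ^ (b + 2) := pow_pos hq.pos _
  have hpq : t + 5 ∣ q ^ a → t + 5 = q := fun h => (Nat.prime_dvd_prime_iff_eq hp hq).1 (hp.dvd_of_dvd_pow h)
  generalize q ^ (b + 2) = s at *
  generalize q ^ a = f at *
  have l1 : n * n < 4 * F := by nlinarith
  have l2 : (t + 5) * (f * s * d) < 4 * (d * (f * s + (t + 4) * f)) := by
    have : (t + 5) * (n * n) < (t + 5) * (4 * F) := Nat.mul_lt_mul_of_pos_left l1 (by omega)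
    simp only [show t + 5 - 1 = t + 4 from rfl] at l
    rw [← e]
    nlinarith
  have l3 : (t + 1) * s < 4 * (t + 4) := by
    by_contra! h
    have : f * d * (4 * (t + 4)) ≤ f * d * ((t + 1) * s) := Nat.mul_le_mul_left _ h
    nlinarith
  have l4 : s < 16 := by nlinarith
  have l5 := Nat.le_of_dvd s0 hs
  have h2 := hq.two_le
  have l6 : q < 4 := by nlinarith
  have hd' : t + 5 ∣ s + (t + 4) := by
    rw [show f * s + (t + 5 - 1) * f = f * (s + (t + 4)) by simp only [show t + 5 - 1 = t + 4 from rfl]; ring] at hd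
    exact ((Nat.Prime.dvd_mul hp).1 hd).resolve_left fun h => by have := hpq h; omega
  have hd2 : t + 5 ∣ s - 1 := by
    have := (Nat.dvd_sub hd' (dvd_refl (t + 5)))
    rwa [show s + (t + 4) - (t + 5) = s - 1 by omega] at this
  have l9 : 4 ≤ s := le_trans (Nat.mul_le_mul h2 h2) l5
  have l7 := Nat.le_of_dvd (by omega) hd2
  have l8 : t ≤ 9 := by omega
  clear l l1 l2 hd e hpq hd' hF hc ha hN l5 s0 h5 hq
  interval_cases q <;> interval_cases t <;> omega

theorem cocycle {A : Type*} [Group A] (ρ : Representation k A E) (Q : Subgroup A) [Finite Q] [hn : Q.Normal]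
    (hc : (Nat.card Q : k) ≠ 0) (h0 : ∀ v, (∀ g ∈ Q, ρ g v = v) → v = 0) (δ : A → E)
    (hδ : ∀ a b, δ (a * b) = δ a + ρ a (δ b)) : ∃ w, ∀ a, δ a = w - ρ a w := by
  classical
  have := Fintype.ofFinite Q
  let w := (Nat.card Q : k)⁻¹ • ∑ g : Q, δ g
  have hQ : ∀ a ∈ Q, δ a = w - ρ a w := fun a ha => by
    have e : ∑ g : Q, δ g = ∑ g : Q, δ (a * g) := (Fintype.sum_equiv (Equiv.mulLeft (⟨a, ha⟩ : Q)) _ _ fun _ => rfl).symm
    simp only [hδ, sum_add_distrib, sum_const, card_univ, ← map_sum, ← Nat.card_eq_fintype_card] at e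
    rw [map_smul, ← smul_sub, sub_eq_iff_eq_add.2 e, ← Nat.cast_smul_eq_nsmul k, inv_smul_smul₀ hc]
  refine ⟨w, fun a => sub_eq_zero.1 (h0 _ fun g hg => ?_)⟩
  have e1 := hδ g a
  have e2 := hδ a (a⁻¹ * g * a)
  have m : a⁻¹ * g * a ∈ Q := by simpa using hn.conj_mem g hg a⁻¹
  have e3 : ρ a (ρ (a⁻¹ * g * a) w) = ρ g (ρ a w) := by
    rw [← Module.End.mul_apply, ← Module.End.mul_apply, ← map_mul, ← map_mul]
    congr 2
    group
  rw [show a * (a⁻¹ * g * a) = g * a by group, e1, hQ _ m, hQ _ hg, map_sub, e3] at e2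
  simp only [map_sub]
  linear_combination (norm := abel1) e2

end Cfsg.Agent.FV
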