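import Mathlib
import Cfsg.Agent.H1.Wt
import Cfsg.Agent.FV.Lin

/-! Fixed point ratio of a generating class of odd prime order in a solvable group. -/

set_option autoImplicit false
set_option linter.unusedSectionVars false

namespace Cfsg.Agent.FV

open Cfsg Subgroup Cfsg.Agent.FT
open scoped commutatorElement

universe u

variable {G : Type u} [Group G] [Finite G] {p : ℕ} {H M : Subgroup G} {x : G}

/-- the conjugates of `x` generate -/
def Gn (x : G) : Prop := ∀ N : Subgroup G, N.Normal → x ∈ N → N = ⊤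

theorem idx2 {Γ : Type*} [Group Γ] {y u γ : Γ} (hp : p.Prime) (h2 : p ≠ 2) (hy : y ^ p = 1) (e : y * u * y⁻¹ = u * γ)
    (c1 : γ * y = y * γ) (c2 : u * γ = γ * u) (c3 : u * u * y = y * (u * u)) : γ = 1 := by
  have a : ∀ j : ℕ, y ^ j * u * (y ^ j)⁻¹ = u * γ ^ j := fun j => by
    induction j with
    | zero => simp
    | succ j ih =>
      have : y * γ ^ j * y⁻¹ = γ ^ j := by rw [← ((show Commute γ y from c1).pow_left j).eq, mul_inv_cancel_right]
      calc _ = y * (y ^ j * u * (y ^ j)⁻¹) * y⁻¹ := by group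
        _ = (y * u * y⁻¹) * (y * γ ^ j * y⁻¹) := by rw [ih]; group
        _ = _ := by rw [e, this, pow_succ']; group
  have b : γ ^ p = 1 := by simpa [hy] using (a p).symm
  have c : γ ^ 2 = 1 := by
    have : u * u * γ ^ 2 = u * u := by
      calc _ = u * (u * γ) * γ := by rw [pow_two]; group
        _ = (y * u * y⁻¹) * (y * u * y⁻¹) := by nth_rw 1 [c2]; rw [e]; group
        _ = y * (u * u) * y⁻¹ := by group
        _ = _ := by rw [← c3]; group
    simpa using this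
  have := Nat.Coprime.eq_one_of_dvd (((Nat.coprime_primes hp Nat.prime_two).2 h2).coprime_dvd_left
    (orderOf_dvd_of_pow_eq_one b)) (orderOf_dvd_of_pow_eq_one c)
  exact orderOf_eq_one_iff.1 this

theorem three (hs : Sol (⊤ : Subgroup G)) (hp : p.Prime) (h2 : p ≠ 2) (hx : x ^ p = 1) (hg : Gn x) (hM : IsCoatom M) :
    ∃ a b : G, ∀ g g', g⁻¹ * x * g ∈ M → g'⁻¹ * x * g' ∈ M → a * g ≠ g' ∧ b * g ≠ g' ∧ a * g ≠ b * g' := by
  by_cases h0 : ∃ g0, g0⁻¹ * x * g0 ∈ M
  swap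
  · exact ⟨1, 1, fun g _ h => (h0 ⟨g, h⟩).elim⟩
  obtain ⟨g0, h0⟩ := h0
  set K := M.normalCore
  have KM : K ≤ M := M.normalCore_le
  have nK : K.Normal := inferInstance
  obtain ⟨N, ch, -⟩ := exists_chief_above (nml_top_iff.2 nK) (Nml.refl ⊤) (lt_of_le_of_lt KM hM.lt_top)
  have nN := nml_top_iff.1 ch.nmlU
  have dN := ch.der_le (hs.mono le_top)
  have NM : ¬ N ≤ M := fun c => ch.lt.not_ge (normal_le_normalCore.2 c)
  have f := mulEq_of_sup (le_top.trans ch.nmlU.nrm) (hM.2 _ (right_lt_sup.2 NM))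
  have iK : N ⊓ M ≤ K := by
    have : (N ⊓ M).Normal := normalizer_eq_top_iff.1 (eq_top_iff.2 (f.sup.ge.trans (sup_le
      (norms_of_comm_le_of_le (dN.trans (le_inf ch.lt.le KM)) inf_le_left) (normsI (le_top.trans ch.nmlU.nrm) (le_nrm M)))))
    exact normal_le_normalCore.2 inf_le_right
  set y := g0⁻¹ * x * g0 with hy
  let φ := QuotientGroup.mk' K
  have hφ : ∀ g, φ g = 1 ↔ g ∈ K := fun g => QuotientGroup.eq_one_iff g
  let C : Subgroup G := N ⊓ (C[φ y]).comap φ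
  have mC : ∀ n, n ∈ C ↔ n ∈ N ∧ φ n * φ y = φ y * φ n := fun n => and_congr_right fun _ => mem_cen1
  have mC' : ∀ n ∈ N, n ∈ C ↔ n⁻¹ * y * n ∈ M := fun n hn => by
    have e : φ n * φ y = φ y * φ n ↔ y⁻¹ * (n⁻¹ * y * n) ∈ K := by
      rw [← hφ]
      simp only [map_mul, map_inv]
      constructor
      · intro h
        rw [mul_assoc (φ n)⁻¹, ← h]
        group
      · intro h
        calc _ = φ n * φ y * ((φ y)⁻¹ * ((φ n)⁻¹ * φ y * φ n)) := by rw [h, mul_one]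
          _ = _ := by group
    rw [mC, e, and_iff_right hn]
    refine ⟨fun h => (mul_mem_cancel_left (inv_mem h0)).1 (KM h), fun h => iK (mem_inf.2 ⟨?_, mul_mem (inv_mem h0) h⟩)⟩
    simpa only [mul_assoc, inv_inv] using mul_mem (nN.conj_mem _ (inv_mem hn) y⁻¹) hn
  have KC : K ≤ C := fun g hg => (mC g).2 ⟨ch.lt.le hg, by rw [(hφ g).2 hg, one_mul, mul_one]⟩
  obtain ⟨n1, hn1, c1⟩ : ∃ n ∈ N, n ∉ C := by_contra fun c => by
    have : y ∈ K := fun g => by
      obtain ⟨n, hn, m, hm, e⟩ := f.mul g⁻¹ (mem_top _)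
      have := (mC' n hn).1 (by_contra fun d => c ⟨n, hn, d⟩)
      rw [inv_eq_iff_eq_inv.1 e]
      simpa only [mul_assoc, mul_inv_rev, inv_inv] using mul_mem (mul_mem (inv_mem hm) this) hm
    have : x ∈ K := by simpa [hy, mul_assoc] using nK.conj_mem _ this g0
    exact hM.1 (eq_top_iff.2 ((hg K nK this).ge.trans KM))
  obtain ⟨n2, hn2, c2, c3⟩ : ∃ n ∈ N, n ∉ C ∧ n1⁻¹ * n ∉ C := by_contra fun c => by
    have d : ∀ n ∈ N, n ∉ C → n1⁻¹ * n ∈ C := fun n hn h => by_contra fun e => c ⟨n, hn, h, e⟩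
    have s : n1 * n1 ∈ C := by_contra fun e => c1 (by simpa using d _ (mul_mem hn1 hn1) e)
    have t : y * n1 * y⁻¹ ∉ C := fun e => c1 ((mC _).2 ⟨hn1, by
      have := ((mC _).1 e).2
      simp only [map_mul, map_inv, inv_mul_cancel_right] at this
      have := mul_left_cancel (this.trans (by group : _ = φ y * (φ y * φ n1 * (φ y)⁻¹)))
      calc _ = φ y * φ n1 * (φ y)⁻¹ * φ y := by rw [← this]
        _ = _ := by group⟩)
    have v := (mC _).1 (d _ (nN.conj_mem _ hn1 y) t)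
    have := idx2 (y := φ y) (u := φ n1) (γ := φ (n1⁻¹ * (y * n1 * y⁻¹))) hp h2
      (by rw [← map_pow, hy, show g0⁻¹ * x * g0 = g0⁻¹ * x * g0⁻¹⁻¹ by simp, conj_pow, hx]; simp)
      (by simp only [map_mul, map_inv]; group) v.2
      (commutatorElement_eq_one_iff_mul_comm.1 (by
        rw [← map_commutatorElement, hφ]
        exact dN (commutator_mem_commutator hn1 v.1))) (by simpa using ((mC _).1 s).2)
    exact t (by simpa using mul_mem (KC ((hφ _).1 this) |> fun h => (c1 ((mC _).2 ⟨hn1, by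
      simp only [map_mul, map_inv] at this
      calc _ = φ n1 * ((φ n1)⁻¹ * (φ y * φ n1 * (φ y)⁻¹)) * φ y := by rw [this, mul_one]
        _ = _ := by group⟩)).elim) (one_mem C))
  have dec : ∀ g, g⁻¹ * x * g ∈ M → ∃ c ∈ C, ∃ m ∈ M, g = g0 * (c * m) := fun g h => by
    obtain ⟨n, hn, m, hm, e⟩ := f.mul (g0⁻¹ * g) (mem_top _)
    have e' : g = g0 * (n * m) := by rw [← e]; group
    refine ⟨n, (mC' n hn).2 ?_, m, hm, e'⟩
    have := mul_mem (mul_mem hm h) (inv_mem hm)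
    rw [e'] at this
    simpa only [hy, mul_assoc, mul_inv_rev, mul_inv_cancel_left, mul_inv_cancel, mul_one] using this
  have key : ∀ n ∈ N, ∀ n' ∈ N, ∀ g g', g⁻¹ * x * g ∈ M → g'⁻¹ * x * g' ∈ M →
      g0 * n * g0⁻¹ * g = g0 * n' * g0⁻¹ * g' → n⁻¹ * n' ∈ C := fun n hn n' hn' g g' h h' e => by
    obtain ⟨c, hc, m, hm, rfl⟩ := dec g h
    obtain ⟨c', hc', m', hm', rfl⟩ := dec g' h'
    have e2 : c⁻¹ * (n⁻¹ * n') * c' = m * m'⁻¹ := by
      calc _ = c⁻¹ * n⁻¹ * g0⁻¹ * (g0 * n' * g0⁻¹ * (g0 * (c' * m'))) * m'⁻¹ := by group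
        _ = _ := by rw [← e]; group
    have : c⁻¹ * (n⁻¹ * n') * c' ∈ C := KC (iK (mem_inf.2 ⟨mul_mem (mul_mem (inv_mem hc.1) (mul_mem (inv_mem hn) hn'))
      hc'.1, e2 ▸ mul_mem hm (inv_mem hm')⟩))
    exact (mul_mem_cancel_left (inv_mem hc)).1 ((mul_mem_cancel_right hc').1 this)
  refine ⟨g0 * n1 * g0⁻¹, g0 * n2 * g0⁻¹, fun g g' h h' => ⟨fun e => c1 ?_, fun e => c2 ?_, fun e => c3 ?_⟩⟩
  · simpa using key n1 hn1 1 (one_mem _) g g' h h' (by simpa using e)
  · simpa using key n2 hn2 1 (one_mem _) g g' h h' (by simpa using e)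
  · exact key n1 hn1 n2 hn2 g g' h h' e

theorem fix3 {I : Type*} [Fintype I] [DecidableEq I] [MulAction G I] (hs : Sol (⊤ : Subgroup G)) (hp : p.Prime)
    (h2 : p ≠ 2) (hx : x ^ p = 1) (hg : Gn x) (i0 : I) (tr : ∀ i, ∃ g : G, g • i0 = i)
    (h1 : MulAction.stabilizer G i0 ≠ ⊤) : 3 * (Finset.univ.filter fun i : I => x • i = i).card ≤ Fintype.card I := by
  obtain ⟨M, hM, l⟩ := exists_coatom h1
  obtain ⟨a, b, h⟩ := three hs hp h2 hx hg hM
  set F := Finset.univ.filter fun i : I => x • i = i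
  have key : ∀ c d : G, (∀ g g', g⁻¹ * x * g ∈ M → g'⁻¹ * x * g' ∈ M → c * g ≠ d * g') →
      Disjoint (F.image (c • ·)) (F.image (d • ·)) := fun c d hcd => by
    rw [Finset.disjoint_left]
    intro z h1 h2
    obtain ⟨i, hi, rfl⟩ := Finset.mem_image.1 h1
    obtain ⟨j, hj, e⟩ := Finset.mem_image.1 h2
    obtain ⟨g, rfl⟩ := tr i
    obtain ⟨g', rfl⟩ := tr j
    have m : ∀ g : G, g • i0 ∈ F → g⁻¹ * x * g ∈ M := fun g h => l (by
      rw [MulAction.mem_stabilizer_iff, mul_smul, mul_smul, (Finset.mem_filter.1 h).2, inv_smul_smul])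
    have s : (d * g')⁻¹ * (c * g) ∈ M := l (by
      rw [MulAction.mem_stabilizer_iff, mul_smul, inv_smul_eq_iff, mul_smul, mul_smul, e])
    refine hcd g (g' * ((d * g')⁻¹ * (c * g))) (m g hi) ?_ (by group)
    simpa only [mul_assoc, mul_inv_rev] using mul_mem (mul_mem (inv_mem s) (m g' hj)) s
  have c : ∀ c : G, (F.image (c • ·)).card = F.card := fun c => Finset.card_image_of_injective _ (MulAction.injective c)
  have d1 := key a 1 fun g g' h1 h2 => by simpa using (h g g' h1 h2).1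
  have d2 := key b 1 fun g g' h1 h2 => by simpa using (h g g' h1 h2).2.1
  have d3 := key a b fun g g' h1 h2 => (h g g' h1 h2).2.2
  have := Finset.card_le_univ ((F.image (a • ·) ∪ F.image (b • ·)) ∪ F.image ((1 : G) • ·))
  rw [Finset.card_union_of_disjoint (Finset.disjoint_union_left.2 ⟨d1, d2⟩), Finset.card_union_of_disjoint d3, c, c, c]
    at this
  omega

end Cfsg.Agent.FV
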