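import Mathlib
import Cfsg.Agent.H28.SecRep
import Cfsg.Agent.FV.Three

/-! Fixed spaces of a generating class of prime order `p > 3` in a solvable group. -/

set_option autoImplicit false
set_option linter.unusedSectionVars false

namespace Cfsg.Agent.FV

open Cfsg Subgroup Cfsg.Agent.FT Module
open Cfsg.Agent.H28 (rfix RInv mem_rfix mem_rfix_zpowers rInv_rfix rfix_eq_top_iff rfix_sup rfix_bot SecRep quoRep)
open scoped commutatorElement

universe u

variable {G : Type u} [Group G] [Finite G] {p q : ℕ} {B N Q : Subgroup G} {a b g h x z : G}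
  {k V : Type*} [Field k] [AddCommGroup V] [Module k V] [FiniteDimensional k V] {ρ : Representation k G V}

/-- no proper invariant subspace -/
def Irr (ρ : Representation k G V) : Prop := ∀ U : Submodule k V, RInv ρ ⊤ U → U = ⊥ ∨ U = ⊤

theorem Irr.fix (h : Irr ρ) (hf : Function.Injective ρ) (hN : N ⊴ ⊤) (h1 : N ≠ ⊥) : rfix ρ N = ⊥ :=
  (h _ (rInv_rfix ρ hN.nrm)).resolve_right fun e => h1 (eq_bot_iff.2
    ((rfix_eq_top_iff.1 e).trans ((MonoidHom.ker_eq_bot_iff ρ).2 hf).le))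

theorem inj_sub (h : rfix ρ ⟪b⁻¹ * a⟫ = ⊥) : Function.Injective (ρ a - ρ b) :=
  (injective_iff_map_eq_zero _).2 fun v hv => by
    have : v ∈ rfix ρ ⟪b⁻¹ * a⟫ := mem_rfix_zpowers.2 (by
      rw [LinearMap.sub_apply, sub_eq_zero] at hv
      rw [map_mul, Module.End.mul_apply, hv, ← Module.End.mul_apply, ← map_mul, inv_mul_cancel, map_one,
        Module.End.one_apply])
    simpa [h] using this

theorem Irr.inj (h : Irr ρ) (hf : Function.Injective ρ) (ha : a ∈ Z((⊤ : Subgroup G))) (hb : b ∈ Z((⊤ : Subgroup G)))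
    (ne : a ≠ b) : Function.Injective (ρ a - ρ b) :=
  inj_sub (h.fix hf (nml_of_le_center (zpowers_le.2 (mul_mem (inv_mem hb) ha)))
    (zpowers_ne_bot' fun e => ne (inv_mul_eq_one.1 e).symm))

theorem rfix_cj {v : V} (hv : v ∈ rfix ρ B) (g : G) : ρ g v ∈ rfix ρ (cj g B) := mem_rfix.2 fun y hy => by
  have := congrArg (ρ g) (mem_rfix.1 hv _ (mem_cj.1 hy))
  rwa [← Module.End.mul_apply, ← map_mul, show g * (g⁻¹ * y * g) = y * g by group, map_mul] at this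

theorem finrank_le_of {U W : Submodule k V} (T : V →ₗ[k] V) (hT : Function.Injective T) (h : ∀ v ∈ U, T v ∈ W) :
    finrank k U ≤ finrank k W :=
  LinearMap.finrank_le_finrank_of_injective (f := T.restrict h) fun _ _ e =>
    Subtype.ext (hT (congrArg Subtype.val e))

theorem rho_inj (ρ : Representation k G V) (g : G) : Function.Injective (ρ g) :=
  (injective_iff_map_eq_zero _).2 fun v hv => by
    simpa [← Module.End.mul_apply, ← map_mul] using congrArg (ρ g⁻¹) hv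

theorem finrank_cj (B : Subgroup G) (g : G) : finrank k (rfix ρ (cj g B)) = finrank k (rfix ρ B) :=
  le_antisymm (finrank_le_of _ (rho_inj ρ g⁻¹) fun v hv => by simpa [cj_cj, cj_one] using rfix_cj hv g⁻¹)
    (finrank_le_of _ (rho_inj ρ g) fun v hv => rfix_cj hv g)

/-- conjugation action on the conjugates of `B` -/
@[reducible] def cjAct (B : Subgroup G) : MulAction G {X : Subgroup G // ∃ g, X = cj g B} where
  smul g X := ⟨cj g X.1, X.2.elim fun h e => ⟨g * h, by rw [e, cj_cj]⟩⟩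
  one_smul X := Subtype.ext (cj_one X.1)
  mul_smul g h X := Subtype.ext (cj_cj g h X.1).symm

theorem abel (hs : Sol (⊤ : Subgroup G)) (hp : p.Prime) (h5 : 5 ≤ p) (hx : x ^ p = 1) (hg : Gn x) (hi : Irr ρ)
    (hf : Function.Injective ρ) (h0 : 0 < finrank k V) (hQ : Q ⊴ ⊤) (aQ : Ab Q) (nc : ¬ Q ≤ Z((⊤ : Subgroup G))) :
    2 * finrank k (rfix ρ ⟪x⟫) < finrank k V := by
  classical
  have : Nontrivial V := finrank_pos_iff.1 h0
  obtain ⟨B, -, ⟨BQ, B0⟩, mx⟩ := exists_max (fun B => B ≤ Q ∧ rfix ρ B ≠ ⊥) ⟨bot_le, by rw [rfix_bot]; exact top_ne_bot⟩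
  by_cases nB : B ⊴ ⊤
  · obtain rfl : B = ⊥ := by_contra fun c => B0 (hi.fix hf nB c)
    have reg : ∀ a ∈ Q, ∀ b ∈ Q, a ≠ b → Function.Injective (ρ a - ρ b) := fun a ha b hb ne => inj_sub (by_contra fun c =>
      zpowers_ne_bot' (fun e => ne (inv_mul_eq_one.1 e).symm) (mx _ ⟨zpowers_le.2 (mul_mem (inv_mem hb) ha), c⟩ bot_le))
    obtain ⟨g, hg, ne⟩ : ∃ g ∈ Q, g * x ≠ x * g := by_contra fun c => nc (le_inf le_top (centsC
      (hg _ (normalizer_eq_top_iff.1 (eq_top_iff.2 (norms_cent hQ.nrm)))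
        (mem_cen.2 fun g hg => by_contra fun d => c ⟨g, hg, d⟩)).ge))
    have m1 := hQ.conj_mem (mem_top x) hg
    have m2 := hQ.conj_mem (mem_top x) m1
    have n1 : g ≠ x * g * x⁻¹ := fun e => ne (by nth_rw 1 [e]; group)
    have := vander (rfix ρ ⟪x⟫) (ρ x) (fun v hv => mem_rfix_zpowers.1 hv) (ρ g) (ρ (x * g * x⁻¹))
      (ρ (x * (x * g * x⁻¹) * x⁻¹)) (by simp [← map_mul]) (by simp [← map_mul])
      (by rw [← map_mul, ← map_mul, aQ.comm hg m1]) (by rw [← map_mul, ← map_mul, aQ.comm hg m2])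
      (reg _ hg _ m1 n1) (reg _ hg _ m2 fun e => ne ?_) (reg _ m1 _ m2 fun e => n1 (by simpa using e))
    · omega
    · have c : x ^ 2 ∈ C[g] := mem_cen1.2 (by nth_rw 2 [e]; rw [pow_two]; group)
      exact (mem_cen1.1 (mem_of_pow_mem c (((Nat.coprime_primes Nat.prime_two hp).2 (by omega)).coprime_dvd_right
        (orderOf_dvd_of_pow_eq_one hx)))).symm
  let _ := cjAct B
  have := Fintype.ofFinite {X : Subgroup G // ∃ g, X = cj g B}
  have sm : ∀ (g : G) (X : {X : Subgroup G // ∃ g, X = cj g B}), (g • X).1 = cj g X.1 := fun _ _ => rfl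
  have f3 := fix3 hs hp (by omega) hx hg (⟨B, 1, (cj_one B).symm⟩ : {X : Subgroup G // ∃ g, X = cj g B})
    (fun ⟨_, g, e⟩ => ⟨g, Subtype.ext e.symm⟩) fun e => nB ⟨le_top, fun g _ =>
      cj_eq_self.1 (congrArg Subtype.val (MulAction.mem_stabilizer_iff.1 (e.ge (mem_top g))))⟩
  have lQ : ∀ X : {X : Subgroup G // ∃ g, X = cj g B}, X.1 ≤ Q := fun ⟨_, g, e⟩ =>
    e ▸ (cj_mono g BQ).trans (cj_of_mem_nrm (hQ.nrm (mem_top g))).le
  obtain ⟨e1, -, e2⟩ := dec (d := finrank k (rfix ρ B)) hp (MulAction.toPerm x) (by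
      rw [← MulAction.toPermHom_apply, ← map_pow, hx, map_one])
    (fun X : {X : Subgroup G // ∃ g, X = cj g B} => rfix ρ X.1) (fun ⟨_, g, e⟩ => e ▸ finrank_cj B g) (fun v => by
      have : ⨆ X : {X : Subgroup G // ∃ g, X = cj g B}, rfix ρ X.1 = ⊤ := (hi _ fun g _ v hv => by
        induction hv using Submodule.iSup_induction' with
        | mem X v hv => exact Submodule.mem_iSup_of_mem (g • X) (rfix_cj hv g)
        | zero => simp
        | add _ _ _ _ h1 h2 => rw [map_add]; exact add_mem h1 h2).resolve_left fun e =>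
          B0 (eq_bot_iff.2 ((le_iSup (fun X : {X : Subgroup G // ∃ g, X = cj g B} => rfix ρ X.1)
            ⟨B, 1, (cj_one B).symm⟩).trans e.le))
      obtain ⟨f, h1, h2⟩ := (Submodule.mem_iSup_iff_exists_finsupp _ v).1 (this.ge Submodule.mem_top)
      exact ⟨f, h1, by rw [← h2, Finsupp.sum_fintype _ _ fun _ => rfl]⟩)
    (fun u hu e i => indep _ (fun X Y ne => by
      obtain ⟨b, hb, nb⟩ : ∃ b ∈ X.1, b ∉ Y.1 := by_contra fun c => ne (Subtype.ext (eq_of_le_of_card_ge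
        (fun b hb => by_contra fun d => c ⟨b, hb, d⟩) (by
          obtain ⟨_, g, rfl⟩ := X
          obtain ⟨_, g', rfl⟩ := Y
          simp only [card_cj, le_refl])))
      refine ⟨ρ b - 1, fun Z v hv => sub_mem (mem_rfix.2 fun y hy => ?_) hv, fun v hv => sub_eq_zero.2 (mem_rfix.1 hv b hb),
        fun v hv e => by_contra fun v0 => nb ?_⟩
      · rw [← Module.End.mul_apply, ← map_mul, aQ.comm (lQ Z hy) (lQ X hb), map_mul, Module.End.mul_apply,
          mem_rfix.1 hv y hy]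
      · obtain ⟨_, g, rfl⟩ := Y
        have m : v ∈ rfix ρ (cj g B ⊔ ⟪b⟫) := by
          rw [rfix_sup]
          exact ⟨hv, mem_rfix_zpowers.2 (sub_eq_zero.1 e)⟩
        have := mx (cj g⁻¹ (cj g B ⊔ ⟪b⟫)) ⟨(cj_mono _ (sup_le (lQ ⟨_, g, rfl⟩) (zpowers_le.2 (lQ X hb)))).trans
          (cj_of_mem_nrm (hQ.nrm (mem_top _))).le, fun c => v0 (rho_inj ρ g⁻¹ (by
            simpa [c] using rfix_cj m g⁻¹))⟩ (cj_le_iff.1 le_sup_left)
        exact mem_cj.2 (this.le (mem_cj.2 (by simpa [mul_assoc] using mem_sup_right (mem_zpowers b))))) Finset.univ u (fun i _ => hu i) e i (Finset.mem_univ i))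
    (ρ x) (fun X v hv => rfix_cj hv x) (rfix ρ ⟪x⟫) fun v hv => mem_rfix_zpowers.1 hv
  simp only [MulAction.toPerm_apply] at e2
  obtain ⟨t, rfl⟩ : ∃ t, p = t + 5 := ⟨p - 5, by omega⟩
  rw [show t + 5 - 1 = t + 4 from rfl] at e2
  by_contra! hc
  rw [e1] at hc h0
  generalize Fintype.card {X : Subgroup G // ∃ g, X = cj g B} = m at *
  generalize (Finset.univ.filter fun i : {X : Subgroup G // ∃ g, X = cj g B} => x • i = i).card = f at *
  generalize finrank k (rfix ρ B) = d at *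
  generalize finrank k (rfix ρ ⟪x⟫) = c at *
  have l1 : d * (t + 4) * (3 * f) ≤ d * (t + 4) * m := Nat.mul_le_mul_left _ f3
  have l2 : (t + 5) * (m * d) ≤ (t + 5) * (2 * c) := Nat.mul_le_mul_left _ hc
  nlinarith

theorem cen_comm' (hz : z ∈ Z((⊤ : Subgroup G))) (g : G) : g * z = z * g := mem_cen.1 hz.2 g (mem_top g)

theorem kap (ρ : Representation k G V) (g h : G) (φ : Module.End k V) :
    Representation.linHom ρ ρ g (ρ h * φ) = ρ (g * h * g⁻¹) * (Representation.linHom ρ ρ g φ : Module.End k V) := by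
  simp only [Representation.linHom_apply, ← Module.End.mul_eq_comp, ← mul_assoc, ← map_mul, inv_mul_cancel_right]

theorem char_ne (hi : Irr ρ) (hf : Function.Injective ρ) (h0 : 0 < finrank k V) (hq : q.Prime)
    (hz : z ∈ Z((⊤ : Subgroup G))) (h1 : z ≠ 1) (e : z ^ q = 1) : (q : k) ≠ 0 := fun c => by
  have : Nontrivial V := finrank_pos_iff.1 h0
  have := Fact.mk hq
  have : CharP k q := (CharP.charP_iff_prime_eq_zero hq).2 c
  have : CharP (Module.End k V) q := charP_of_injective_algebraMap (algebraMap k _).injective q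
  have a := sub_pow_char_of_commute q (Commute.one_right (ρ z))
  rw [← map_pow, e, map_one, one_pow, sub_self] at a
  have b := (hi.inj hf hz (one_mem _) h1).iterate q
  rw [← Module.End.coe_pow, map_one, a] at b
  obtain ⟨v, hv⟩ := exists_ne (0 : V)
  exact hv (b (by simp))

theorem scal.{v, w} {k : Type v} {V : Type w} [Field k] [AddCommGroup V] [Module k V] [FiniteDimensional k V]
    {ρ : Representation k G V} (hi : Irr ρ) (h0 : 0 < finrank k V)
    (H : ∀ (K : Type w) [Field K] [Module K V] [FiniteDimensional K V] (ρ' : Representation K G V),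
      (∀ g v, ρ' g v = ρ g v) → Irr ρ' → (∀ z ∈ Z((⊤ : Subgroup G)), ∀ φ, ρ' z * φ = φ * ρ' z) →
      2 * finrank K (rfix ρ' B) < finrank K V) : 2 * finrank k (rfix ρ B) < finrank k V := by
  have : Nontrivial V := finrank_pos_iff.1 h0
  let A := Subalgebra.centralizer k (Set.range ρ)
  let K := A ⊓ Subalgebra.centralizer k (A : Set (Module.End k V))
  have hA : ∀ a ∈ A, ∀ g, ρ g * a = a * ρ g := fun a ha g => (Subalgebra.mem_centralizer_iff k).1 ha _ ⟨g, rfl⟩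
  have hK : IsField K := ⟨exists_pair_ne K, fun a b => Subtype.ext (b.2.2 _ a.2.1), fun {a} h => by
    have inj : Function.Injective a.1 := LinearMap.ker_eq_bot.1 ((hi _ fun g _ v hv => by
      rw [LinearMap.mem_ker, ← Module.End.mul_apply, ← hA _ a.2.1, Module.End.mul_apply, LinearMap.mem_ker.1 hv,
        map_zero]).resolve_right fun e => h (Subtype.ext (LinearMap.ker_eq_top.1 e)))
    obtain ⟨u, hu⟩ := (LinearMap.isUnit_iff_ker_eq_bot a.1).2 (LinearMap.ker_eq_bot.2 inj)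
    have c : ∀ b, b * a.1 = a.1 * b → b * u⁻¹.1 = u⁻¹.1 * b := fun b e =>
      (show Commute b u.1 from hu ▸ e).units_inv_right
    exact ⟨⟨u⁻¹.1, fun b hb => c b (a.2.1 b hb), fun b hb => c b (a.2.2 b hb)⟩, Subtype.ext (show a.1 * u⁻¹.1 = 1 from hu ▸ u.mul_inv)⟩⟩
  let _ := hK.toField
  have : FiniteDimensional K V := Module.Finite.of_restrictScalars_finite k K V
  let ρ' : Representation K G V :=
    { toFun := fun g => ⟨(ρ g).toAddHom, fun a v => congrArg (· v) (hA _ a.2.1 g)⟩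
      map_one' := LinearMap.ext fun v => congrArg (· v) ρ.map_one
      map_mul' := fun g h => LinearMap.ext fun v => congrArg (· v) (ρ.map_mul g h) }
  have := H K ρ' (fun _ _ => rfl) (fun U hU => (hi (U.restrictScalars k) hU).imp
    (Submodule.restrictScalars_eq_bot_iff k K V).1 (Submodule.restrictScalars_eq_top_iff k K V).1) fun z hz φ =>
      LinearMap.ext fun v => (φ.map_smul (⟨ρ z, fun _ ⟨g, e⟩ => by rw [← e, ← map_mul, ← map_mul, cen_comm' hz],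
        fun a ha => (hA a ha z).symm⟩ : K) v).symm
  rw [← finrank_mul_finrank k K V, show finrank k (rfix ρ B) = finrank k (rfix ρ' B) from rfl,
    ← finrank_mul_finrank k K (rfix ρ' B)]
  have : 0 < finrank k K := finrank_pos
  nlinarith

theorem core (hs : Sol (⊤ : Subgroup G)) (hp : p.Prime) (h5 : 5 ≤ p) (hx : x ^ p = 1) (hg : Gn x) (hi : Irr ρ)
    (hf : Function.Injective ρ) (h1 : ∃ g, ρ g ≠ 1) (sc : ∀ z ∈ Z((⊤ : Subgroup G)), ∀ φ, ρ z * φ = φ * ρ z)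
    (ih : ∀ (q : ℕ) [Fact q.Prime] (n : ℕ) (σ : Representation (ZMod q) G (Fin n → ZMod q)), Irr σ → (∃ g, σ g ≠ 1) →
      σ.ker ≠ ⊥ → 2 * finrank (ZMod q) (rfix σ ⟪x⟫) < n) :
    2 * finrank k (rfix ρ ⟪x⟫) < finrank k V := by
  classical
  have h0 : 0 < finrank k V := finrank_pos_iff.2 (by_contra fun c => h1.elim fun g hg => hg (by
    have := not_nontrivial_iff_subsingleton.1 c
    exact Subsingleton.elim _ _))
  have x1 : x ≠ 1 := fun e => h1.elim fun g h => h (by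
    rw [mem_bot.1 ((hg ⊥ inferInstance (mem_bot.2 e)).ge (mem_top g)), map_one])
  by_cases hab : ∃ Q : Subgroup G, Q ⊴ ⊤ ∧ Ab Q ∧ ¬ Q ≤ Z((⊤ : Subgroup G))
  · obtain ⟨Q, a, b, c⟩ := hab
    exact abel hs hp h5 hx hg hi hf h0 a b c
  replace hab : ∀ Q : Subgroup G, Q ⊴ ⊤ → Ab Q → Q ≤ Z((⊤ : Subgroup G)) := fun Q a b =>
    by_contra fun c => hab ⟨Q, a, b, c⟩
  by_cases xZ : x ∈ Z((⊤ : Subgroup G))
  · rwa [hi.fix hf (nml_of_le_center (zpowers_le.2 xZ)) (zpowers_ne_bot' x1), finrank_bot]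
  obtain ⟨Q, ch, -⟩ := exists_chief_above (center_nml (⊤ : Subgroup G)) (Nml.refl ⊤)
    (lt_top_iff_ne_top.2 fun e => xZ (e.ge (mem_top x)))
  obtain ⟨q, hq, ab⟩ := ch.abelem (hs.mono le_top)
  obtain ⟨dQ, pw⟩ := (abelem_quo_iff (le_top.trans ch.nmlV.nrm)).1 ab
  have := Fact.mk hq
  obtain ⟨S⟩ := H28.nonempty_secRep q ch.lt.le dQ pw ch.nmlU.nrm ch.nmlV.nrm
  have nQ : ∀ g : G, ∀ {a}, a ∈ Q → g * a * g⁻¹ ∈ Q := fun g _ ha => ch.nmlU.conj_mem (mem_top g) ha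
  let σ : Representation (ZMod q) G (Fin S.n → ZMod q) := S.ρ.comp (topEquiv.symm : G ≃* (⊤ : Subgroup G)).toMonoidHom
  have hσ : ∀ g, ∀ a ∈ Q, σ g (S.π a) = S.π (g * a * g⁻¹) := fun g a ha => (S.conj ⟨g, mem_top g⟩ a ha).symm
  choose s sQ sπ using S.surj
  have nd : ∀ h ∈ Q, h ∉ Z((⊤ : Subgroup G)) → ∃ g ∈ Q, ⁅g, h⁆ ≠ 1 := fun h hh n => by_contra fun c =>
    n (hab _ ch.nmlU.center (ab_center Q) ⟨hh, mem_cen.2 fun g hg =>
      commutatorElement_eq_one_iff_mul_comm.1 (by_contra fun d => c ⟨g, hg, d⟩)⟩)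
  have cZ : ∀ g ∈ Q, ∀ h ∈ Q, ⁅g, h⁆ ∈ Z((⊤ : Subgroup G)) := fun g hg h hh => dQ (commutator_mem_commutator hg hh)
  have c1 : ∀ g ∈ Q, ∀ g' ∈ Q, ∀ h ∈ Q, ⁅g * g', h⁆ = ⁅g, h⁆ * ⁅g', h⁆ := fun g hg g' hg' h hh => by
    rw [cen_comm' (cZ _ hg' _ hh)]
    calc _ = g * ⁅g', h⁆ * (g⁻¹ * ⁅g, h⁆) := by simp only [commutatorElement_def]; group
      _ = _ := by rw [cen_comm' (cZ _ hg' _ hh)]; group
  have c2 : ∀ g ∈ Q, ∀ h ∈ Q, ∀ h' ∈ Q, ⁅g, h * h'⁆ = ⁅g, h⁆ * ⁅g, h'⁆ := fun g hg h hh h' hh' => by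
    calc _ = ⁅g, h⁆ * (h * ⁅g, h'⁆) * h⁻¹ := by simp only [commutatorElement_def]; group
      _ = _ := by rw [cen_comm' (cZ _ hg _ hh')]; group
  have z1 : ∀ g : G, ∀ z ∈ Z((⊤ : Subgroup G)), ⁅g, z⁆ = 1 := fun g z hz =>
    commutatorElement_eq_one_iff_mul_comm.2 (cen_comm' hz g)
  have z2 : ∀ g : G, ∀ z ∈ Z((⊤ : Subgroup G)), ⁅z, g⁆ = 1 := fun g z hz =>
    commutatorElement_eq_one_iff_mul_comm.2 (cen_comm' hz g).symm
  have sp : ∀ a ∈ Q, ∀ b ∈ Q, S.π a = S.π b → ∃ z ∈ Z((⊤ : Subgroup G)), b = a * z := fun a ha b hb e =>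
    ⟨_, (S.eq_iff' ha hb).1 e, by group⟩
  have e2 : ∀ g ∈ Q, ∀ a ∈ Q, ∀ b ∈ Q, S.π a = S.π b → ⁅g, a⁆ = ⁅g, b⁆ := fun g hg a ha b hb e => by
    obtain ⟨z, hz, rfl⟩ := sp a ha b hb e
    rw [c2 g hg a ha z (ch.lt.le hz), z1 g z hz, mul_one]
  obtain ⟨a0, a0Q, a0Z⟩ := SetLike.exists_of_lt ch.lt
  have n2 : 2 ≤ S.n := by
    by_contra! c
    have r := S.relIndex_eq
    rw [← card_quo (le_top.trans ch.nmlV.nrm)] at r
    refine a0Z (hab Q ch.nmlU (ab_of_cyc_quo (le_inf ch.lt.le (center_le_cen le_top)) ?_) a0Q)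
    rcases (by omega : S.n = 0 ∨ S.n = 1) with h | h
    · rw [eq_bot_of_card_eq _ (r.trans (by rw [h, pow_zero]))]
      exact cyc_bot
    · exact cyc_of_prime (by rwa [r, h, pow_one])
  have ha := ih q S.n σ (fun U hU => by
      rcases ch.eq_or_eq (S.le_pre U) (S.pre_le U) (le_nrm_iff.2 fun g _ a ha => S.mem_pre.2 ⟨nQ g (S.mem_pre.1 ha).1,
        hσ g a (S.mem_pre.1 ha).1 ▸ hU g (mem_top g) _ (S.mem_pre.1 ha).2⟩) with e | e
      · refine .inl (eq_bot_iff.2 fun v hv => ?_)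
        rw [← sπ v] at hv ⊢
        exact (S.eq_zero _ (sQ v)).2 (e.le (S.mem_pre.2 ⟨sQ v, hv⟩))
      · exact .inr (eq_top_iff.2 fun v _ => sπ v ▸ (S.mem_pre.1 (e.ge (sQ v))).2))
    (by_contra fun c => a0Z (hab (Z((⊤ : Subgroup G)) ⊔ ⟪a0⟫) ⟨le_top, norms_of_comm_le_of_le ?_ (sup_le ch.lt.le (zpowers_le.2 a0Q))⟩
      ((ab_center _).sup (ab_zpowers _) (centsC (center_le_cen le_top))) (mem_sup_right (mem_zpowers a0))))
    (ne_bot_of_mem (x := a0) (by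
      refine LinearMap.ext fun v => ?_
      rw [← sπ v, hσ _ _ (sQ v), Module.End.one_apply, S.eq_iff (nQ _ (sQ v)) (sQ v)]
      exact cZ _ a0Q _ (sQ v)) fun e => a0Z (e ▸ one_mem _))
  swap
  · rw [Subgroup.commutator_comm]
    refine (commutator_le.2 fun g _ a ha => (S.apply_eq_iff ⟨g, mem_top g⟩ ha).1 ?_).trans le_sup_left
    exact congrArg (· (S.π a)) (by_contra fun d => c ⟨g, d⟩ : σ g = 1)
  obtain ⟨g0, g0Q, g0n⟩ := nd a0 a0Q a0Z
  have qk : (q : k) ≠ 0 := char_ne hi hf h0 hq (cZ _ g0Q _ a0Q) g0n (by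
    have : ∀ n : ℕ, ⁅g0, a0⁆ ^ n = ⁅g0, a0 ^ n⁆ := fun n => by
      induction n with
      | zero => simp
      | succ n ih => rw [pow_succ, pow_succ, ih, c2 _ g0Q _ (pow_mem a0Q n) _ a0Q]
    rw [this, z1 _ _ (pw _ a0Q)])
  let κ := Representation.linHom ρ ρ
  have hκ : ∀ g h φ, κ g (ρ h * φ) = ρ (g * h * g⁻¹) * (κ g φ : Module.End k V) := kap ρ
  have κm : ∀ g h φ, κ g (κ h φ) = κ (g * h) φ := fun g h φ => by rw [map_mul]; rfl
  have ρm : ∀ g h (φ : Module.End k V), ρ g * (ρ h * φ) = ρ (g * h) * φ := fun g h φ => by rw [map_mul, mul_assoc]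
  have κz : ∀ g, ∀ z ∈ Z((⊤ : Subgroup G)), ∀ φ, κ g (ρ z * φ) = ρ z * (κ g φ : Module.End k V) := fun g z hz φ => by
    rw [hκ, cen_comm' hz, mul_inv_cancel_right]
  have κZ : ∀ z ∈ Z((⊤ : Subgroup G)), ∀ φ, κ z φ = φ := fun z hz φ => by
    change ρ z * (φ * ρ z⁻¹) = φ
    rw [← mul_assoc, sc z hz, mul_assoc, ← map_mul, mul_inv_cancel, map_one, mul_one]
  let W : (Fin S.n → ZMod q) → Submodule k (V →ₗ[k] V) := fun w =>
    { carrier := {φ | ∀ g ∈ Q, κ g φ = ρ ⁅g, s w⁆ * φ}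
      zero_mem' := fun g _ => by simp
      add_mem' := fun ha hb g hg => by rw [map_add, ha g hg, hb g hg, mul_add]
      smul_mem' := fun c φ h g hg => by rw [map_smul, h g hg, mul_smul_comm] }
  have mW : ∀ w φ, φ ∈ W w ↔ ∀ g ∈ Q, κ g φ = ρ ⁅g, s w⁆ * φ := fun _ _ => Iff.rfl
  have inj : ∀ (T : Module.End k V), Function.Injective T → ∀ φ : Module.End k V, T * φ = 0 → φ = 0 := fun T hT φ e =>
    LinearMap.ext fun v => hT ((congrArg (· v) e).trans (map_zero T).symm)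
  have le : ∀ w u, finrank k (W w) ≤ finrank k (W u) := fun w u => by
    obtain ⟨w', rfl⟩ : ∃ w', u = w' + w := ⟨u - w, by simp⟩
    exact finrank_le_of (LinearMap.mulLeft k (ρ (s w'))) ((injective_iff_map_eq_zero _).2 (inj _ (rho_inj ρ _))) fun φ h g hg => by
      change κ g (ρ _ * φ) = _ * (ρ _ * φ)
      rw [hκ, h g hg, ρm, ρm, e2 g hg _ (sQ (w' + w)) _ (mul_mem (sQ w') (sQ w)) (by rw [S.map_mul _ (sQ _) _ (sQ _), sπ, sπ, sπ]),
        c2 g hg _ (sQ _) _ (sQ _), mul_assoc ⁅g, s w'⁆, ← cen_comm' (cZ g hg _ (sQ w)), ← mul_assoc, commutatorElement_def g (s w'),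
        inv_mul_cancel_right]
  let _ : MulAction G (Fin S.n → ZMod q) := 
    { smul := fun g v => σ g v
      one_smul := fun v => congrArg (· v) σ.map_one
      mul_smul := fun g h v => congrArg (· v) (σ.map_mul g h) }
  have cI : Fintype.card (Fin S.n → ZMod q) = q ^ S.n := by simp
  have mk : ((q ^ S.n : ℕ) : k) ≠ 0 := by exact_mod_cast pow_ne_zero _ qk
  have D := dec (d := finrank k (W 0)) hp (MulAction.toPerm x : Equiv.Perm (Fin S.n → ZMod q)) (by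
      rw [← MulAction.toPermHom_apply, ← map_pow, hx, map_one]) W
    (fun w => le_antisymm (le _ _) (le _ _)) (fun φ => ⟨fun w =>
      ((q ^ S.n : ℕ) : k)⁻¹ • ∑ v, ρ ⁅s v, s w⁆⁻¹ * (κ (s v) φ : Module.End k V), fun w => ?_, ?_⟩)
    (fun u hu e i => indep W (fun w w' ne => ?_) Finset.univ u (fun i _ => hu i) e i (Finset.mem_univ i))
    (κ x) (fun w φ h g hg => ?_) (rfix κ ⟪x⟫) fun v hv => mem_rfix_zpowers.1 hv
  · obtain ⟨f1, f2, f3⟩ := D
    have cf : (Finset.univ.filter fun i : Fin S.n → ZMod q => (MulAction.toPerm x : Equiv.Perm _) i = i).card =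
        q ^ finrank (ZMod q) (rfix σ ⟪x⟫) := by
      have := @Module.natCard_eq_pow_finrank (ZMod q) (rfix σ ⟪x⟫) _ _ _ _
      rw [Nat.card_zmod] at this
      rw [← this, ← Fintype.card_subtype, ← Nat.card_eq_fintype_card]
      exact Nat.card_congr (Equiv.subtypeEquivRight fun v => mem_rfix_zpowers.symm)
    rw [cf, cI] at f2 f3
    rw [finrank_linearMap, cI] at f1
    exact arith hp h5 hq n2 ha f1 f2 f3 (endfix (ρ x) (fun e => x1 (hf (e.trans ρ.map_one.symm))) _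
      (fun _ => mem_rfix_zpowers) _ fun φ e => mem_rfix_zpowers.2 (by
        change ρ x * (φ * ρ x⁻¹) = φ
        rw [← mul_assoc, e, mul_assoc, ← map_mul, mul_inv_cancel, map_one, mul_one]))
  · refine Submodule.smul_mem _ _ fun g hg => ?_
    rw [map_sum, Finset.mul_sum]
    refine Fintype.sum_equiv (Equiv.addLeft (S.π g)) _ _ fun v => ?_
    obtain ⟨z, hz, e⟩ := sp _ (mul_mem hg (sQ v)) _ (sQ (S.π g + v)) (by rw [S.map_mul _ hg _ (sQ v), sπ, sπ])
    rw [κz _ _ (inv_mem (cZ _ (sQ v) _ (sQ w))), κm, Equiv.coe_addLeft, e, ρm, ← κm _ z, κZ z hz,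
      c1 _ (mul_mem hg (sQ v)) _ (ch.lt.le hz) _ (sQ w), z2 _ _ hz, mul_one, c1 _ hg _ (sQ v) _ (sQ w),
      cen_comm' (inv_mem (mul_mem (cZ _ hg _ (sQ w)) (cZ _ (sQ v) _ (sQ w)))), mul_inv_rev, inv_mul_cancel_right]
  · have s0 : s 0 ∈ Z((⊤ : Subgroup G)) := (S.eq_zero _ (sQ 0)).1 (sπ 0)
    rw [← Finset.smul_sum, Finset.sum_comm, Finset.sum_eq_single 0 (fun v _ v0 => ?_) (by simp)]
    · simp only [z2 _ _ s0, κZ _ s0, inv_one, map_one, one_mul, Finset.sum_const, Finset.card_univ, cI]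
      rw [← Nat.cast_smul_eq_nsmul k, inv_smul_smul₀ mk]
    obtain ⟨g, hg, n⟩ := nd _ (sQ v) fun c => v0 (sπ v ▸ (S.eq_zero _ (sQ v)).2 c)
    rw [← Finset.sum_mul, inj _ (hi.inj hf (inv_mem (cZ _ (sQ v) g hg)) (one_mem _) fun c => n (by
      rwa [commutatorElement_inv] at c)) (∑ w, ρ ⁅s v, s w⁆⁻¹) ?_, zero_mul]
    rw [sub_mul, map_one, one_mul, sub_eq_zero, Finset.mul_sum]
    refine Fintype.sum_equiv (Equiv.addRight (S.π g)) _ _ fun w => ?_
    rw [Equiv.coe_addRight, e2 _ (sQ v) _ (sQ (w + S.π g)) _ (mul_mem (sQ w) hg) (by rw [S.map_mul _ (sQ w) _ hg, sπ, sπ]),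
      c2 _ (sQ v) _ (sQ w) _ hg, mul_inv_rev, map_mul]
  · obtain ⟨g, hg, n⟩ := nd _ (mul_mem (inv_mem (sQ w)) (sQ w')) fun c => ne (by
      rw [← sπ w, ← sπ w']
      exact (S.eq_iff' (sQ w) (sQ w')).2 c)
    refine ⟨κ g - LinearMap.mulLeft k (ρ ⁅g, s w⁆), fun l φ h => sub_mem (fun a ha => ?_) fun a ha => ?_,
      fun φ h => sub_eq_zero.2 (h g hg), fun φ h e => inj _ (hi.inj hf (cZ g hg _ (sQ w')) (cZ g hg _ (sQ w)) fun c => n ?_) φ ?_⟩
    · rw [h g hg, κz _ _ (cZ g hg _ (sQ l)), h a ha, ρm, ρm, cen_comm' (cZ g hg _ (sQ l))]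
    · change κ a (ρ _ * φ) = _ * (ρ _ * φ)
      rw [κz _ _ (cZ g hg _ (sQ w)), h a ha, ρm, ρm, cen_comm' (cZ g hg _ (sQ w))]
    · have := c2 g hg _ (sQ w) _ (mul_mem (inv_mem (sQ w)) (sQ w'))
      rwa [mul_inv_cancel_left, c, left_eq_mul] at this
    · rwa [sub_mul, ← h g hg]
  · have m := nQ x⁻¹ hg
    rw [κm, show g * x = x * (x⁻¹ * g * x⁻¹⁻¹) by group, ← κm, h _ m, κz _ _ (cZ _ m _ (sQ w)),
      e2 g hg _ (sQ _) _ (nQ x (sQ w)) (by rw [sπ, ← hσ _ _ (sQ w), sπ]; rfl)]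
    congr 2
    calc _ = x * ⁅x⁻¹ * g * x⁻¹⁻¹, s w⁆ * x⁻¹ := by rw [cen_comm' (cZ _ m _ (sQ w)), mul_inv_cancel_right]
      _ = _ := by simp only [commutatorElement_def]; group

/-- induction hypothesis -/
def Hf (p m : ℕ) : Prop := ∀ (G : Type u) [Group G] [Finite G], Nat.card G < m → ∀ x : G, Sol (⊤ : Subgroup G) →
  x ^ p = 1 → Gn x → ∀ (q : ℕ) [Fact q.Prime] (n : ℕ) (σ : Representation (ZMod q) G (Fin n → ZMod q)), Irr σ →
    (∃ g, σ g ≠ 1) → 2 * finrank (ZMod q) (rfix σ ⟪x⟫) < n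

theorem quo (hs : Sol (⊤ : Subgroup G)) (hx : x ^ p = 1) (hg : Gn x) (hi : Irr ρ) (h1 : ∃ g, ρ g ≠ 1) :
    Sol (⊤ : Subgroup (G ⧸ ρ.ker)) ∧ (x : G ⧸ ρ.ker) ^ p = 1 ∧ Gn (x : G ⧸ ρ.ker) ∧ Irr (quoRep ρ _ le_rfl) ∧
      (∃ g, quoRep ρ _ le_rfl g ≠ 1) ∧ Function.Injective (quoRep ρ _ le_rfl) ∧
      rfix (quoRep ρ _ le_rfl) ⟪(x : G ⧸ ρ.ker)⟫ = rfix ρ ⟪x⟫ := by
  have := sol_top.1 hs
  refine ⟨sol_top.2 inferInstance, by rw [← QuotientGroup.mk_pow, hx, QuotientGroup.mk_one], fun N hN h =>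
    eq_top_iff.2 fun g _ => ?_, fun U hU => hi U fun g _ => hU g (mem_top _), h1.elim fun g h => ⟨g, h⟩,
    (injective_iff_map_eq_one _).2 fun g h => ?_, Submodule.ext fun v => mem_rfix_zpowers.trans (mem_rfix_zpowers (ρ := ρ) (x := x)).symm⟩
  · obtain ⟨g, rfl⟩ := QuotientGroup.mk_surjective g
    exact (hg _ (hN.comap (QuotientGroup.mk' _)) h).ge (mem_top g)
  · obtain ⟨g, rfl⟩ := QuotientGroup.mk_surjective g
    exact (QuotientGroup.eq_one_iff g).2 h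

theorem step (H : Hf.{u} p (Nat.card G)) (hs : Sol (⊤ : Subgroup G)) (hp : p.Prime) (h5 : 5 ≤ p) (hx : x ^ p = 1)
    (hg : Gn x) (hi : Irr ρ) (h1 : ∃ g, ρ g ≠ 1) : 2 * finrank k (rfix ρ ⟪x⟫) < finrank k V := by
  obtain ⟨a, b, c, d, e, f, g⟩ := quo hs hx hg hi h1
  rw [← g]
  refine scal d (finrank_pos_iff.2 (by_contra fun c => h1.elim fun g hg => hg (by
    have := not_nontrivial_iff_subsingleton.1 c
    exact Subsingleton.elim _ _))) fun K _ _ _ ρ' e' i' sc => core a hp h5 b c i'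
      (fun s t h => f (LinearMap.ext fun v => by rw [← e', ← e', h]))
      (e.imp fun g h c => h (LinearMap.ext fun v => by rw [← e', c]; rfl)) sc fun q _ n σ i n1 n2 => ?_
  obtain ⟨a, b, c, d, e, -, g⟩ := quo a b c i n1
  rw [← g]
  refine H _ (lt_of_lt_of_le ?_ (Nat.card_le_card_of_surjective _ (QuotientGroup.mk_surjective (s := ρ.ker)))) _ a b c q n _ d e
  rw [card_eq_card_quotient_mul_card_subgroup σ.ker]
  exact lt_mul_of_one_lt_right Nat.card_pos ((one_lt_card_iff_ne_bot _).2 n2)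

theorem hf (hp : p.Prime) (h5 : 5 ≤ p) (m : ℕ) : Hf.{u} p m := by
  induction m with
  | zero => exact fun _ _ _ h => absurd h (Nat.not_lt_zero _)
  | succ m ih =>
    intro G _ _ h x a b c q _ n σ d e
    simpa using step (fun G' _ _ h' => ih G' (by omega)) a hp h5 b c d e

theorem half (hs : Sol (⊤ : Subgroup G)) (hp : p.Prime) (h5 : 5 ≤ p) (hx : x ^ p = 1)
    (hg : Gn x) (hi : Irr ρ) (h1 : ∃ g, ρ g ≠ 1) : 2 * finrank k (rfix ρ ⟪x⟫) < finrank k V :=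
  step (hf hp h5 _) hs hp h5 hx hg hi h1

end Cfsg.Agent.FV
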