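import Mathlib
import Cfsg.Agent.FV.Half

/-! Covering an irreducible section by a subgroup generated by two conjugates. -/

set_option autoImplicit false
set_option linter.unusedSectionVars false

namespace Cfsg.Agent.FV

open Cfsg Subgroup Cfsg.Agent.FT Module
open Cfsg.Agent.H28 (rfix RInv mem_rfix mem_rfix_zpowers rInv_rfix rfix_eq_top_iff SecRep)
open scoped commutatorElement

universe u

variable {G : Type u} [Group G] [Finite G] {p q r : ℕ} {A U V W : Subgroup G} {a x y : G}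

theorem cover [Fact r.Prime] (S : SecRep r A V W) (x y : A) (hA : A = ⟪x.1⟫ ⊔ ⟪y.1⟫) (ch : Chief (A ⊔ V) W V)
    (dV : ⁅V, V⁆ ≤ W) (Q : Subgroup A) [Q.Normal] (hc : (Nat.card Q : ZMod r) ≠ 0) (h0 : rfix S.ρ Q = ⊥) :
    (∃ v ∈ V, V ≤ ⟪x.1⟫ ⊔ ⟪v * y * v⁻¹⟫ ⊔ W) ∨ rfix S.ρ ⟪x⟫ ⊔ rfix S.ρ ⟪y⟫ = ⊤ := by
  refine or_iff_not_imp_left.2 fun c => eq_top_iff.2 fun v _ => ?_
  obtain ⟨v, hv, rfl⟩ := S.surj v
  set B := ⟪x.1⟫ ⊔ ⟪v * y * v⁻¹⟫
  have yB : v * y * v⁻¹ ∈ B := mem_sup_right (mem_zpowers _)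
  have BM : B ≤ A ⊔ V := sup_le (zpowers_le.2 (mem_sup_left x.2))
    (zpowers_le.2 (mul_mem (mul_mem (mem_sup_right hv) (mem_sup_left y.2)) (mem_sup_right (inv_mem hv))))
  have AB : A ≤ V ⊔ B := hA.le.trans (sup_le (le_sup_left.trans le_sup_right) (zpowers_le.2 (by
    simpa [mul_assoc] using mul_mem (mul_mem (mem_sup_left (inv_mem hv)) (mem_sup_right yB)) (mem_sup_left (T := B) hv))))
  have nV : V ≤ N(V ⊓ (B ⊔ W)) := norms_of_comm_le_of_le (dV.trans (le_inf ch.lt.le le_sup_right)) inf_le_left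
  have e : V ⊓ (B ⊔ W) = W := (ch.eq_or_eq (le_inf ch.lt.le le_sup_right) inf_le_left (sup_le (AB.trans (sup_le nV
    (normsI (BM.trans ch.nmlU.nrm) (norms_of_le le_sup_left)))) nV)).resolve_right fun e => c ⟨v, hv, inf_eq_left.1 e⟩
  have ex : ∀ g : A, ∃ u ∈ V, u * g ∈ B ⊔ W := fun g => by
    obtain ⟨u, hu, b, hb, e⟩ := (mem_sup_norm (BM.trans ch.nmlU.nrm)).1 (AB g.2)
    exact ⟨u⁻¹, inv_mem hu, by rw [e, inv_mul_cancel_left]; exact mem_sup_left hb⟩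
  choose f fV fB using ex
  have un : ∀ g : A, ∀ u ∈ V, u * g ∈ B ⊔ W → S.π (f g) = S.π u := fun g u hu h => (S.eq_iff (fV g) hu).2
    (e.le ⟨V.mul_mem (fV g) (V.inv_mem hu), by simpa [mul_assoc] using mul_mem (fB g) (inv_mem h)⟩)
  obtain ⟨w, hw⟩ := cocycle S.ρ Q hc (fun v h => by simpa [h0] using mem_rfix.2 h) (fun g => S.π (f g)) fun a b => by
    have m := conj_mem (S.nrm a.2) (fV b)
    rw [← S.conj a _ (fV b), ← S.map_mul _ (fV a) _ m]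
    exact un _ _ (mul_mem (fV a) m) (by simpa [mul_assoc] using mul_mem (fB a) (fB b))
  have hx := hw x
  have hy := hw y
  have m := conj_mem (S.nrm y.2) (inv_mem hv)
  rw [un x 1 (one_mem _) (by rw [one_mul]; exact mem_sup_left (mem_sup_left (mem_zpowers _))), S.map_one] at hx
  rw [un y _ (mul_mem hv m) (by simpa [mul_assoc] using mem_sup_left (T := W) yB), S.map_mul _ hv _ m,
    S.conj y _ (inv_mem hv), S.map_inv hv, map_neg] at hy
  rw [← add_sub_cancel w (S.π v)]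
  exact Submodule.add_mem_sup (mem_rfix_zpowers.2 (sub_eq_zero.1 hx.symm).symm) (mem_rfix_zpowers.2 (by
    rw [map_sub]; linear_combination (norm := abel1) -hy))

theorem irr_of_chief [Fact r.Prime] (S : SecRep r A V W) (ch : Chief (A ⊔ V) W V) (dV : ⁅V, V⁆ ≤ W) : Irr S.ρ :=
  fun U hU => by
  rcases ch.eq_or_eq (S.le_pre U) (S.pre_le U) (sup_le (le_nrm_iff.2 fun g hg a ha => S.mem_pre.2
      ⟨conj_mem (S.nrm hg) (S.mem_pre.1 ha).1, S.conj ⟨g, hg⟩ a (S.mem_pre.1 ha).1 ▸ hU _ (mem_top _) _ (S.mem_pre.1 ha).2⟩)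
      (norms_of_comm_le_of_le (dV.trans (S.le_pre U)) (S.pre_le U))) with e | e
  · refine .inl (eq_bot_iff.2 fun v hv => ?_)
    obtain ⟨v, h, rfl⟩ := S.surj v
    exact (S.eq_zero _ h).2 (e.le (S.mem_pre.2 ⟨h, hv⟩))
  · refine .inr (eq_top_iff.2 fun v _ => ?_)
    obtain ⟨v, h, rfl⟩ := S.surj v
    exact (S.mem_pre.1 (e.ge h)).2

set_option maxHeartbeats 800000 in
theorem maxcent (hp : p.Prime) (h5 : 5 ≤ p) (hx : x ^ p = 1) (hs : Sol A) (ha : a ∈ A) (hA : A = ⟪x⟫ ⊔ cj a ⟪x⟫)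
    (mx : ∀ B, A ≤ B → Sol B → (∃ b ∈ B, B = ⟪x⟫ ⊔ cj b ⟪x⟫) → B = A) {Q : Subgroup G} (hQ : Q ⊴ A) (nQ : Nil Q)
    (nU : Nil U) (hU : A ≤ N(U)) (hc : Cop U Q) : Q ≤ C(U) := by
  by_contra c
  obtain ⟨U, -, ⟨nU, hU, hc, c⟩, mn⟩ := exists_min (fun U => Nil U ∧ A ≤ N(U) ∧ Cop U Q ∧ ¬ Q ≤ C(U)) ⟨nU, hU, hc, c⟩
  have lt : ∀ W, W < U → A ≤ N(W) → Q ≤ C(W) := fun W h n => by_contra fun d =>
    h.ne (mn W ⟨nU.mono h.le, n, hc.mono_left h.le, d⟩ h.le)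
  have QU := hQ.le.trans hU
  have e : ⁅U, Q⁆ = U := by_contra fun d => c (coprime_commGG1P QU hc
    (comm_eq_bot'.2 (lt _ ((comm_le_left QU).lt_of_ne d) (normsR hU hQ.nrm))))
  obtain ⟨W, ch, -⟩ := exists_chief_below (nml_bot _) (nml_sup_right hU) (bot_lt_iff_ne_bot.2 fun d => c (by rw [d, cen_bot]; exact le_top))
  obtain ⟨r, hr, ab⟩ := ch.abelem nU.sol
  obtain ⟨dU, pw⟩ := (abelem_quo_iff ch.nml.nrm).1 ab
  have := Fact.mk hr
  obtain ⟨S⟩ := H28.nonempty_secRep r ch.lt.le dU pw hU (le_sup_left.trans ch.nmlV.nrm)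
  have xA : x ∈ A := hA.ge (mem_sup_left (mem_zpowers x))
  have := hQ.normal
  have ir := irr_of_chief S ch dU
  have nk : ¬ Q.subgroupOf A ≤ S.ρ.ker := fun d => ch.lt.not_ge (e.ge.trans ((commC U Q).le.trans ((S.le_ker_iff hQ.le).1 d)))
  have h0 : rfix S.ρ (Q.subgroupOf A) = ⊥ := (ir _ (rInv_rfix _ (normalizer_eq_top_iff.2 this).ge)).resolve_right
    fun d => nk (rfix_eq_top_iff.1 d)
  rw [cj_zpowers] at hA
  have cq : (Nat.card (Q.subgroupOf A) : ZMod r) ≠ 0 := H28.natCast_zmod_ne_zero fun d => by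
    rw [H28.card_subgroupOf_of_le hQ.le] at d
    have l := S.relIndex_eq ▸ one_lt_relIndex ch.lt.not_ge
    exact hr.one_lt.ne' (Nat.eq_one_of_dvd_coprimes hc ((dvd_pow_self r fun z => by simp [z] at l).trans
      (S.relIndex_eq ▸ relIndex_dvd W U)) d)
  have yA := mul_mem (mul_mem ha xA) (inv_mem ha)
  have D := cover S ⟨x, xA⟩ ⟨_, yA⟩ hA ch dU (Q.subgroupOf A) cq h0
  rcases D with ⟨v, hv, h⟩ | h
  · set B := ⟪x⟫ ⊔ ⟪v * (a * x * a⁻¹) * v⁻¹⟫ with hB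
    have BM : B ≤ A ⊔ U := sup_le (zpowers_le.2 (mem_sup_left xA)) (zpowers_le.2 (mul_mem (mul_mem (mem_sup_right hv)
      (mem_sup_left yA)) (mem_sup_right (inv_mem hv))))
    have UB : U ≤ B := inf_eq_left.1 (nU.eq_of_le_sup_der inf_le_left (by
      have := inf_sup_right' (BM.trans ch.nmlV.nrm) ch.lt.le
      rw [inf_eq_left.2 h] at this
      exact this.le.trans (sup_le le_sup_right (le_sup_of_le_left ((le_inf (ch.lt.le.trans e.ge)
        (centsC (lt W ch.lt (le_sup_left.trans ch.nmlV.nrm)))).trans (coprime_cent_comm_le_der QU hc))))))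
    have AB : A ≤ B := hA.le.trans (sup_le le_sup_left (zpowers_le.2 (by
      simpa [mul_assoc] using mul_mem (mul_mem (inv_mem (UB hv)) (mem_sup_right (S := ⟪x⟫) (mem_zpowers _))) (UB hv))))
    rw [mx B AB ((hs.sup' nU.sol hU).mono BM) ⟨v * a, mul_mem (UB hv) (AB ha), by rw [cj_zpowers, hB]; group⟩] at UB
    exact c ((fitting_nil A).cents_of_cop (fitting_max hQ nQ) (fitting_max ⟨UB, hU⟩ nU) hc.symm')
  · have l := half (ρ := S.ρ) (x := ⟨x, xA⟩) (sol_top.2 hs) hp h5 (Subtype.ext hx) (fun N hN h => eq_top_iff.2 fun g _ => by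
      obtain ⟨_, h, e⟩ := (hA.le.trans (sup_le (zpowers_le.2 (mem_map_of_mem A.subtype h))
        (zpowers_le.2 (mem_map_of_mem A.subtype (hN.conj_mem _ h ⟨a, ha⟩))))) g.2
      exact (Subtype.ext e : _ = g) ▸ h) ir (by_contra fun d => nk fun g _ => by_contra fun n => d ⟨g, n⟩)
    have := Submodule.finrank_add_le_finrank_add_finrank (rfix S.ρ ⟪(⟨x, xA⟩ : A)⟫)
      (rfix S.ρ ⟪(⟨_, yA⟩ : A)⟫)
    rw [h, show ⟪(⟨_, yA⟩ : A)⟫ = cj ⟨a, ha⟩ ⟪⟨x, xA⟩⟫ from (cj_zpowers (⟨a, ha⟩ : A) ⟨x, xA⟩).symm, finrank_cj,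
      finrank_top] at this
    omega

end Cfsg.Agent.FV
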