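import Mathlib
import Cfsg.Agent.FV.Cover

/-! Fixed points in `[H, P]` for `P` of odd prime order acting coprimely on a solvable group. -/

set_option autoImplicit false
set_option linter.unusedSectionVars false

namespace Cfsg.Agent.FV

open Cfsg Subgroup Cfsg.Agent.FT Module
open Cfsg.Agent.H28 (rfix RInv mem_rfix mem_rfix_zpowers rInv_rfix rfix_eq_top_iff SecRep)
open scoped commutatorElement

universe u

variable {G : Type u} [Group G] [Finite G] {p q r : ℕ} {H K L N P U : Subgroup G} {a b g h x y z : G}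

/-- `[h, P]` -/
def Tc (H P : Subgroup G) (h : G) : Subgroup G := H ⊓ (P ⊔ cj h P)

/-- the join of the fixed points in the `[h, P]` -/
def Sc (H P : Subgroup G) : Subgroup G := ⨆ h ∈ H, Tc H P h ⊓ C(P)

theorem le_Sc (hh : h ∈ H) : Tc H P h ⊓ C(P) ≤ Sc H P := le_iSup₂_of_le h hh le_rfl

theorem Sc_le : Sc H P ≤ H ⊓ C(P) := iSup₂_le fun _ _ => inf_le_inf_right _ inf_le_left

theorem Sc_mono (h : K ≤ H) : Sc K P ≤ Sc H P :=
  iSup₂_le fun _ hg => (inf_le_inf_right _ (inf_le_inf_right _ h)).trans (le_Sc (h hg))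

theorem Sc_nrm : H ⊓ C(P) ≤ N(Sc H P) := fun g hg => cj_eq_self.1 (eq_of_card_le (cj_le_iff.2 (iSup₂_le fun h hh =>
  cj_le_iff.1 (by
    have := cj_of_mem_cen hg.2
    rw [cj_inf, Tc, cj_inf, cj_sup, cj_cen, cj_cj, this, cj_of_mem hg.1]
    exact le_Sc (mul_mem hg.1 hh)))) (card_cj _ _).ge)

theorem Tc_nrm (hn : P ≤ N(H)) : P ≤ N(Tc H P h) := normsI hn (norms_of_le le_sup_left)

theorem comm_mem_Tc (hn : P ≤ N(H)) (hh : h ∈ H) (hx : x ∈ P) : ⁅h, x⁆ ∈ Tc H P h :=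
  ⟨comm_le_left hn (commutator_mem_commutator hh hx),
    mul_mem (mem_sup_right (mem_cj'.2 ⟨x, hx, rfl⟩)) (mem_sup_left (inv_mem hx))⟩

theorem comm_zp_le (hx : x ∈ N(H)) (h : ∀ g ∈ H, ⁅g, x⁆ ∈ L) : ⁅H, ⟪x⟫⁆ ≤ L := commutator_le.2 fun g hg y hy => by
  obtain ⟨n, rfl⟩ := mem_powers_iff_mem_zpowers.2 hy
  induction n generalizing g with
  | zero => simp
  | succ n ih =>
    have := mul_mem (h g hg) (ih _ (conj_mem hx hg) (pow_mem (mem_zpowers x) n))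
    simp only [commutatorElement_def] at this ⊢
    convert this using 1
    group

theorem fix2 (hy : y ^ p = 1) (e : y * g * y⁻¹ = g * z) (c : z * y = y * z) (hc : (orderOf z).Coprime p) : z = 1 := by
  have a : ∀ j : ℕ, y ^ j * g * (y ^ j)⁻¹ = g * z ^ j := fun j => by
    induction j with
    | zero => simp
    | succ j ih =>
      have : y * z ^ j * y⁻¹ = z ^ j := by rw [← ((show Commute z y from c).pow_left j).eq, mul_inv_cancel_right]
      calc _ = y * (y ^ j * g * (y ^ j)⁻¹) * y⁻¹ := by group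
        _ = (y * g * y⁻¹) * (y * z ^ j * y⁻¹) := by rw [ih]; group
        _ = _ := by rw [e, this, pow_succ']; group
  exact orderOf_eq_one_iff.1 (hc.eq_one_of_dvd (orderOf_dvd_of_pow_eq_one (by simpa [hy] using (a p).symm)))

theorem cz (hs : Commute z a) (ht : Commute z b) : ⁅z * a, z * b⁆ = ⁅a, b⁆ := by
  calc _ = z * (a * (z * (b * a⁻¹)) * z⁻¹ * b⁻¹) * z⁻¹ := by simp only [commutatorElement_def]; group
    _ = z * (a * b * a⁻¹ * b⁻¹) * z⁻¹ := by rw [(ht.mul_right hs.inv_right).eq]; group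
    _ = _ := by rw [(((hs.mul_right ht).mul_right hs.inv_right).mul_right ht.inv_right).eq, mul_inv_cancel_right]; rfl

theorem caseC (hp : p.Prime) (h2 : p ≠ 2) (hP : #P = p) (hn : P ≤ N(H)) (hc : Cop H P) (e : ⁅H, P⁆ = H) (nil : Nil H)
    (key : ∀ N, N ≤ H → N ≠ ⊥ → H ⊔ P ≤ N(N) → ¬ N ⊓ C(P) ≤ Sc H P) : H ⊓ C(P) ≤ Sc H P := by
  by_cases ab : Ab H
  · rw [← e, coprime_abel_cent_TI hn hc ab]
    exact bot_le
  exfalso
  obtain ⟨x, rfl⟩ := cyc_iff.1 (cyc_of_prime (A := P) (hP ▸ hp))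
  have xP := mem_zpowers x
  have xp : x ^ p = 1 := hP ▸ pow_card xP
  have nZ : H ⊔ ⟪x⟫ ≤ N(Z(H)) := sup_le (center_nml H).nrm (norms_center hn)
  have ZP : Z(H) ≤ C(⟪x⟫) := comm_eq_bot.1 (by_contra fun c => key _ ((comm_le_left (norms_center hn)).trans inf_le_left) c
    (sup_le (cents_norm (centsC ((comm_le_left (norms_center hn)).trans inf_le_right))) (norm_comm_right _ _))
    (by rw [coprime_abel_cent_TI (norms_center hn) (hc.mono_left inf_le_left) (ab_center H)]; exact bot_le))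
  have ZS : Z(H) ⊓ Sc H ⟪x⟫ = ⊥ := by_contra fun c => key _ (inf_le_left.trans inf_le_left) c
    (cents_norm (centsC (centsY (inf_le_left.trans inf_le_right) (inf_le_left.trans ZP)))) (inf_le_left.trans inf_le_right)
  have zz : ∀ w ∈ H, ∀ w' ∈ H, ∀ c ∈ Tc H ⟪x⟫ w, ∀ z ∈ Z(H), z * c ∈ Tc H ⟪x⟫ w' → z = 1 := fun w hw w' hw' c h1 z hz h2 => by
    have ZT : Z(H) ≤ C(Tc H ⟪x⟫ w') := center_le_cen inf_le_left
    have nE : ⟪x⟫ ≤ N(Tc H ⟪x⟫ w ⊓ (Tc H ⟪x⟫ w' ⊔ Z(H))) := normsI (Tc_nrm hn) (normsY (Tc_nrm hn) (norms_center hn))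
    have l : Tc H ⟪x⟫ w ⊓ (Tc H ⟪x⟫ w' ⊔ Z(H)) ≤ Tc H ⟪x⟫ w' := by
      refine (coprime_cent_prod nE (hc.mono_left (inf_le_left.trans inf_le_left))
        (nil.sol.mono (inf_le_left.trans inf_le_left))).sup.ge.trans (sup_le ((commSS inf_le_right le_rfl).trans ?_) ?_)
      · rw [(mulEq_sup (cents_norm ZT)).comm_eq_of_cents ZP]
        exact comm_le_left (Tc_nrm hn)
      · rintro y ⟨⟨h1, h2⟩, h3⟩
        obtain ⟨t, ht, z, hz, rfl⟩ := (mem_sup_norm (cents_norm ZT)).1 h2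
        have : t ∈ C(⟪x⟫) := by simpa using (C(⟪x⟫)).mul_mem h3 (inv_mem (ZP hz))
        rwa [eq_one_of_mem_inf ZS hz (by simpa using mul_mem (inv_mem (le_Sc hw' ⟨ht, this⟩)) (le_Sc hw ⟨h1, h3⟩)), mul_one]
    have := l ⟨h1, by simpa using mul_mem (mem_sup_right (inv_mem hz)) (mem_sup_left (T := Z(H)) h2)⟩
    exact eq_one_of_mem_inf ZS hz (le_Sc hw' ⟨by simpa using mul_mem h2 (inv_mem this), ZP hz⟩)
  have YH := ucn_le 2 H
  have nY : ⟪x⟫ ≤ N(ucn 2 H) := norms_ucn 2 hn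
  have cZ : ∀ b ∈ ucn 2 H, ∀ a ∈ H, ⁅b, a⁆ ∈ Z(H) := fun b hb a ha => ucn_two_comm H (commutator_mem_commutator hb ha)
  have cm : ∀ z ∈ Z(H), ∀ a ∈ H, a * z = z * a := fun z hz a ha => mem_cen.1 hz.2 a ha
  have cx : ∀ z ∈ Z(H), x * z = z * x := fun z hz => mem_cen.1 (ZP hz) x xP
  have co : ∀ z ∈ H, (orderOf z).Coprime p := fun z hz => hP ▸ hc.coprime_dvd_left (orderOf_dvd_card' hz)
  have id : ∀ a ∈ H, ∀ a' ∈ H, ∀ b ∈ ucn 2 H, ∀ b' ∈ ucn 2 H,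
      ⁅a * b, a' * b'⁆ = ⁅b, a'⁆ * ⁅b, b'⁆ * ⁅b', a⁻¹⁆ * ⁅a, a'⁆ := fun a ha a' ha' b hb b' hb' => by
    calc _ = a * ⁅b, a'⁆ * a' * ⁅b, b'⁆ * ⁅b', a⁻¹⁆ * a⁻¹ * a'⁻¹ := by simp only [commutatorElement_def]; group
      _ = _ := by
        rw [cm _ (cZ b hb a' ha') a ha, mul_assoc ⁅b, a'⁆, mul_assoc ⁅b, a'⁆, cm _ (cZ b hb b' (YH hb')) _ (mul_mem ha ha'),
          ← mul_assoc ⁅b, a'⁆, mul_assoc _ (a * a'), cm _ (cZ b' hb' _ (inv_mem ha)) _ (mul_mem ha ha'),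
          commutatorElement_def a a']
        group
  have main : ∀ u ∈ ucn 2 H, ∀ w ∈ H, ⁅⁅u, x⁆, x * ⁅w, x⁆ * x⁻¹⁆ * ⁅⁅u, x⁆, x * ⁅u, x⁆ * x⁻¹⁆ *
      ⁅x * ⁅u, x⁆ * x⁻¹, ⁅w, x⁆⁻¹⁆ = 1 := fun u hu w hw => by
    have ha := comm_mem_Tc hn hw xP
    have ha' := comm_mem_Tc hn (mul_mem (YH hu) hw) xP
    have hb := comm_le_left nY (commutator_mem_commutator hu xP)
    have hz := cZ u hu _ ha.1
    have e1 : ⁅u * w, x⁆ = ⁅u, ⁅w, x⁆⁆ * (⁅w, x⁆ * ⁅u, x⁆) := by simp only [commutatorElement_def]; group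
    generalize ⁅w, x⁆ = a at *
    generalize ⁅u, x⁆ = b at *
    generalize ⁅u, a⁆ = z at *
    have hax := conj_mem (hn xP) ha.1
    have hbx := conj_mem (nY xP) hb
    refine zz w hw _ (mul_mem (YH hu) hw) ⁅a, x * a * x⁻¹⁆ (der_le _ (commutator_mem_commutator ha
      (conj_mem (Tc_nrm hn xP) ha))) _ (mul_mem (mul_mem (cZ _ hb _ hax) (cZ _ hb _ (YH hbx))) (cZ _ hbx _ (inv_mem ha.1))) ?_
    rw [← id _ ha.1 _ hax _ hb _ hbx]
    have := der_le _ (commutator_mem_commutator ha' (conj_mem (Tc_nrm hn xP) ha'))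
    rwa [e1, show x * (z * (a * b)) * x⁻¹ = z * (x * a * x⁻¹ * (x * b * x⁻¹)) by rw [← mul_assoc, cx z hz]; group,
      cz (cm z hz _ (mul_mem ha.1 (YH hb))).symm (cm z hz _ (mul_mem hax (YH hbx))).symm] at this
  have YP : ucn 2 H ≤ C(⟪x⟫) := fun u hu => by
    have hb := comm_le_left nY (commutator_mem_commutator hu xP)
    have hbx := conj_mem (nY xP) hb
    have hbx' := conj_mem' (nY xP) hb
    have m1 := main u hu 1 (one_mem _)
    have m2 := main u hu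
    generalize eb : ⁅u, x⁆ = b at *
    simp only [commutatorElement_one_left, mul_one, mul_inv_cancel, commutatorElement_one_right, one_mul, inv_one] at m1
    have hz : (x⁻¹ * b * x)⁻¹ * (x * b * x⁻¹) ∈ Z(H) := ⟨YH (mul_mem (inv_mem hbx') hbx), centsC (e.ge.trans
      (comm_zp_le (hn xP) fun w hw => mem_cen.2 fun _ h => ?_) : H ≤ C(⟪_⟫)) (mem_zpowers _)⟩
    · have e1 := fix2 (g := x⁻¹ * b * x) (y := x ^ 2) (by rw [← pow_mul, mul_comm, pow_mul, xp, one_pow]) (by group)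
        ((show Commute _ x from (cx _ hz).symm).pow_right 2) (co _ hz.1)
      have c : x ^ 2 ∈ C[b] := mem_cen1.2 (by
        rw [pow_two]
        calc _ = x * (x * b * x⁻¹) * x := by group
          _ = _ := by rw [← inv_mul_eq_one.1 e1]; group)
      have := fix2 (g := u⁻¹) (z := b) xp (by rw [← eb, commutatorElement_def]; group)
        (mem_cen1.1 (mem_of_pow_mem c (((Nat.coprime_primes Nat.prime_two hp).2 h2.symm).coprime_dvd_right
        (orderOf_dvd_of_pow_eq_one xp)))).symm (co _ (YH hb))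
      exact centsC (zpowers_le.2 (mem_cen.2 fun _ ⟨n, h⟩ => h ▸ ((show Commute u x from
        commutatorElement_eq_one_iff_mul_comm.1 (eb.trans this)).zpow_left n).eq) : ⟪x⟫ ≤ C(⟪u⟫)) (mem_zpowers u)
    obtain ⟨n, rfl⟩ := h
    refine (Commute.zpow_left ?_ n).eq
    have m3 := m2 w hw
    have ha := (comm_mem_Tc hn hw xP).1
    generalize ⁅w, x⁆ = a at *
    have e1 : ⁅b, x * a * x⁻¹⁆ = ⁅x⁻¹ * b * x, a⁆ := by
      calc _ = x * ⁅x⁻¹ * b * x, a⁆ * x⁻¹ := by simp only [commutatorElement_def]; group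
        _ = _ := by rw [cx _ (cZ _ hbx' _ ha), mul_inv_cancel_right]
    have e2 : ⁅x * b * x⁻¹, a⁻¹⁆ = ⁅x * b * x⁻¹, a⁆⁻¹ := by
      calc _ = a⁻¹ * ⁅x * b * x⁻¹, a⁆⁻¹ * a := by simp only [commutatorElement_def]; group
        _ = _ := by rw [cm _ (inv_mem (cZ _ hbx _ ha)) _ (inv_mem ha), inv_mul_cancel_right]
    rw [m1, mul_one, e1, e2, mul_inv_eq_one, commutatorElement_def, commutatorElement_def, mul_left_inj] at m3
    generalize x⁻¹ * b * x = s at *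
    generalize x * b * x⁻¹ = t at *
    calc _ = s⁻¹ * (t * a * t⁻¹) * t := by group
      _ = _ := by rw [← m3]; group
  exact (nil.center_lt_ucn_two ab).not_ge (le_inf YH (centsC (e.ge.trans ((commC _ _).le.trans
    (comm_le_left (norms_cent (ucn_nml 2 H).nrm) |>.trans' (commSS (centsC YP) le_rfl))))))

theorem caseA (hp : p.Prime) (h2 : p ≠ 2) (hP : #P = p) (hs : Sol H) (hn : P ≤ N(H)) (hc : Cop H P) (e : ⁅H, P⁆ = H)
    (sub : ∀ K, K < H → P ≤ N(K) → ⁅K, P⁆ ⊓ C(P) ≤ Sc H P) (mU : MinNml U (H ⊔ P)) (UH : U ≤ H)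
    (cop : ∀ N, N ≤ H → H ⊔ P ≤ N(N) → Cop N U → N = ⊥) (dD : ⁅H ⊓ C(P), H ⊓ C(P)⁆ ≤ Sc H P) (nc : ¬ H ≤ C(U)) :
    U ⊓ C(P) ≤ Sc H P := by
  have nH : H ⊴ H ⊔ P := nml_sup_left hn
  have nU := mU.nrm
  have HU := le_sup_left.trans nU
  have PU := le_sup_right.trans nU
  obtain ⟨r, hr, aU⟩ := mU.abelem (hs.mono UH)
  obtain ⟨F, ch, FH⟩ := exists_chief_above (nH.subcent nU) nH (inf_lt_left.2 nc)
  obtain ⟨q, hq, ab⟩ := ch.abelem (hs.mono FH)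
  obtain ⟨dF, -⟩ := (abelem_quo_iff ch.nml.nrm).1 ab
  obtain ⟨Q, sy, PQ⟩ := coprime_Sylow_exists q (le_sup_right.trans ch.nmlU.nrm) (hc.mono_left FH) (.inl (hs.mono FH))
  have QH := sy.le.trans FH
  have QU := QH.trans HU
  have FQ : H ⊓ C(U) ⊔ Q = F := sy.sup_eq_of_relIndex ch.lt.le ((piGrp_quo_iff ch.nml.nrm).1 (ab.pGrp hq))
  have UQ : U ⊓ C(Q) = ⊥ := by_contra fun c => ch.lt.not_ge (le_inf FH (centsC (inf_eq_left.1 (mU.min _ inf_le_left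
    (fun d => c (eq_bot_of_le (le_inf inf_le_left (FQ ▸ centsY (inf_le_left.trans (centsC inf_le_right)) inf_le_right)) d))
    (norms_subcent nU ch.nmlU.nrm)))))
  have cUQ : Cop U Q := (aU.pGrp hr).cop_of_ne sy.pi fun d => by
    subst d
    exact ((aU.pGrp hr).sup sy.pi QU).nil.meet_cen (nml_sup_left QU) mU.ne
      (eq_bot_of_le (inf_le_inf_left _ (centSS le_sup_right le_rfl le_rfl)) UQ)
  have cQP := hc.mono_left QH
  have nF : P ≤ N(⁅Q, P⁆) := norm_comm_right Q P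
  have FQ' : ⁅Q, P⁆ ≤ Q := comm_le_left PQ
  have d1 := coprime_cent_prod PQ cQP sy.pi.nil.sol
  have d2 := coprime_cent_mulG (coprime_cent_prod (FQ'.trans QU) (cUQ.mono_right FQ') aU.nil.sol) (normsR PU nF)
    (norms_subcent PU nF) (hc.mono_left (inf_le_right.trans (inf_le_left.trans UH))) (.inr (sol_of_prime (hP ▸ hp)))
  by_contra key
  have HQ : U ⊔ Q = H := by_contra fun c => key (d2.sup.ge.trans (sup_le ((inf_le_inf_right _ ((commSS le_rfl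
      (commSS le_sup_right le_rfl)).trans (comm_le_right (le_sup_left.trans (norm_comm_left (U ⊔ Q) P))))).trans
      (sub _ ((sup_le UH QH).lt_of_ne c) (normsY PU PQ))) (by
    have n : Q ⊓ C(P) ≤ N(U ⊓ C(⁅Q, P⁆) ⊓ C(P)) := normsI (norms_subcent (inf_le_left.trans QU)
      (inf_le_left.trans (norm_comm_left Q P))) (norms_of_le inf_le_right)
    rw [← coprime_comm_eq_of_cent_bot n (cUQ.mono (inf_le_left.trans inf_le_left) inf_le_left)
      (.inr (sy.pi.nil.sol.mono inf_le_left)) (eq_bot_of_le (le_inf (inf_le_left.trans (inf_le_left.trans inf_le_left))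
        (centSS d1.sup.ge le_rfl (centsY (inf_le_left.trans (inf_le_left.trans inf_le_right)) inf_le_right))) UQ)]
    exact (commSS (inf_le_inf_right _ (inf_le_left.trans UH)) (inf_le_inf_right _ QH)).trans dD)))
  have QC : Q ⊓ C(U) = ⊥ := cop _ (inf_le_left.trans QH) (sup_le (HQ.ge.trans (sup_le (cents_norm (centsC inf_le_right))
    (norms_subcent (le_nrm Q) QU))) (norms_subcent PQ PU)) (cUQ.symm'.mono_left inf_le_left)
  have KU : H ⊓ C(U) = U := by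
    rw [inf_comm, ← HQ, inf_sup_left QU aU.ab.le_cen, inf_comm, QC, sup_bot_eq]
  obtain rfl : F = H := by rw [← FQ, KU, HQ]
  rw [KU] at ch dF
  have aQ : Ab Q := ab_iff_der.2 (eq_bot_of_le (le_inf ((der_mono QH).trans dF) (der_le Q)) cUQ.inf)
  have QP : ⁅Q, P⁆ = Q := FQ'.antisymm (by
    have : Q ≤ U ⊔ ⁅Q, P⁆ := QH.trans (e.ge.trans (HQ ▸ comm_sup_le (sup_le (norms_of_le le_sup_left)
      (normsY QU (norm_comm_left Q P))) (le_sup_of_le_left (comm_le_left PU)) le_sup_right))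
    rw [← inf_eq_left, inf_sup_right (FQ'.trans QU) FQ', inf_comm Q, cUQ.inf, bot_sup_eq] at this
    exact this.ge)
  have CQ : Q ⊓ C(P) = ⊥ := QP ▸ coprime_abel_cent_TI PQ cQP aQ
  obtain ⟨w, wQ, w1⟩ := exists_ne_one (H := Q) fun c => ch.lt.ne (by rw [← HQ, c, sup_bot_eq])
  obtain ⟨x, rfl⟩ := cyc_iff.1 (cyc_of_prime (A := P) (hP ▸ hp))
  have xP := mem_zpowers x
  have QT : Q ≤ Tc Q ⟪x⟫ w := by
    have l : Tc Q ⟪x⟫ w ≤ Q := inf_le_left
    have := ch.max (U ⊔ Tc Q ⟪x⟫ w) (left_lt_sup.2 fun c => w1 (eq_one_of_mem_inf CQ wQ (centsC (zpowers_le.2 (mem_cen.2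
        fun _ ⟨n, h⟩ => h ▸ ((show Commute w x from commutatorElement_eq_one_iff_mul_comm.1 (eq_one_of_mem_inf cUQ.inf
        (c (comm_mem_Tc PQ wQ xP)) (comm_mem_Tc PQ wQ xP).1)).zpow_left n).eq) : ⟪x⟫ ≤ C(⟪w⟫)) (mem_zpowers w))))
      (sup_le UH (l.trans QH)) (sup_le (HQ.ge.trans (sup_le (norms_of_le le_sup_left) (normsY QU (aQ.norms l))))
        (normsY PU (Tc_nrm PQ)))
    have e := inf_sup_right (l.trans QU) l
    rw [this, inf_eq_left.2 QH, inf_comm Q, cUQ.inf, bot_sup_eq] at e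
    exact e.le
  have hA : Q ⊔ ⟪x⟫ = ⟪x⟫ ⊔ ⟪w * x * w⁻¹⟫ := le_antisymm (sup_le (cj_zpowers w x ▸ QT.trans inf_le_right) le_sup_left)
    (sup_le le_sup_right (zpowers_le.2 (mul_mem (mul_mem (mem_sup_left wQ) (mem_sup_right xP)) (mem_sup_left (inv_mem wQ)))))
  have := Fact.mk hr
  obtain ⟨S⟩ := H28.nonempty_secRep r (M := Q ⊔ ⟪x⟫) bot_le (ab_iff_der.1 aU.ab).le (fun g hg => aU.pow hg) (sup_le QU PU)
    (norms_bot _)
  have := (nml_sup_left PQ).normal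
  obtain ⟨u, uU, u1⟩ := exists_ne_one mU.ne
  have cq : (Nat.card (Q.subgroupOf (Q ⊔ ⟪x⟫)) : ZMod r) ≠ 0 := H28.natCast_zmod_ne_zero fun d => by
    rw [H28.card_subgroupOf_of_le le_sup_left] at d
    exact hr.one_lt.ne' (Nat.eq_one_of_dvd_coprimes cUQ (aU.orderOf hr uU u1 ▸ orderOf_dvd_card' uU) d)
  have h0 : rfix S.ρ (Q.subgroupOf (Q ⊔ ⟪x⟫)) = ⊥ := eq_bot_iff.2 fun v hv => by
    obtain ⟨v, h, rfl⟩ := S.surj v
    exact (S.eq_zero _ h).2 (UQ.le ⟨h, mem_cen.2 fun g hg => commutatorElement_eq_one_iff_mul_comm.1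
      ((S.mem_rfix_iff le_sup_left h).1 hv g hg)⟩)
  have xA : x ∈ Q ⊔ ⟪x⟫ := mem_sup_right xP
  have wA : w ∈ Q ⊔ ⟪x⟫ := mem_sup_left wQ
  have yA := mul_mem (mul_mem wA xA) (inv_mem wA)
  have D := cover S ⟨x, xA⟩ ⟨_, yA⟩ hA ⟨bot_lt_iff_ne_bot.2 mU.ne, nml_bot _, nml_sup_right (sup_le QU PU),
    fun W h1 h2 h3 => mU.min W h2 h1.ne' ((sup_le (HQ.ge.trans (sup_le le_sup_right (le_sup_of_le_left le_sup_left)))
      (le_sup_of_le_left le_sup_right)).trans h3)⟩ (ab_iff_der.1 aU.ab).le _ cq h0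
  rcases D with ⟨v, hv, h⟩ | h
  · refine key ((inf_le_inf_right _ (le_inf UH ?_)).trans (le_Sc (mul_mem (UH hv) (QH wQ))))
    rwa [sup_bot_eq, ← cj_zpowers, ← cj_zpowers, cj_cj] at h
  have e0 : ⟪x⟫.subgroupOf (Q ⊔ ⟪x⟫) = ⟪⟨x, xA⟩⟫ := by
    ext ⟨y, hy⟩
    simp [mem_subgroupOf, mem_zpowers_iff, Subtype.ext_iff]
  have l := H28.finrank_rfix_frobenius S.ρ _ _ (H28.subgroupOf_le_normalizer PQ) (H28.SemiReg.subgroupOf
    (H28.semiReg_iff.2 fun g hg g1 => (cen1_eq_of_prime (hP ▸ hp) hg g1).symm ▸ CQ) _) cq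
  have := Submodule.finrank_add_le_finrank_add_finrank (rfix S.ρ ⟪(⟨x, xA⟩ : ↥(Q ⊔ ⟪x⟫))⟫) (rfix S.ρ ⟪(⟨_, yA⟩ : ↥(Q ⊔ ⟪x⟫))⟫)
  rw [h, show ⟪(⟨_, yA⟩ : ↥(Q ⊔ ⟪x⟫))⟫ = cj ⟨w, wA⟩ ⟪⟨x, xA⟩⟫ from (cj_zpowers (⟨w, wA⟩ : ↥(Q ⊔ ⟪x⟫)) ⟨x, xA⟩).symm,
    finrank_cj, finrank_top] at this
  rw [H28.rfix_sup, h0, bot_inf_eq, finrank_bot, H28.card_subgroupOf_of_le le_sup_right, hP, e0] at l
  have n0 : finrank (ZMod r) (Fin S.n → ZMod r) ≠ 0 := fun d => u1 ((S.eq_zero _ uU).1 (finrank_zero_iff_forall_zero.1 d _))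
  have := hp.two_le.lt_of_ne h2.symm
  nlinarith [Nat.pos_of_ne_zero n0]

/-- induction hypothesis -/
def Fx (p m : ℕ) : Prop := ∀ (G : Type u) [Group G] [Finite G] (H P : Subgroup G), #H < m → Sol H → P ≤ N(H) → #P = p →
  Cop H P → ⁅H, P⁆ ⊓ C(P) ≤ Sc H P

theorem fx (hp : p.Prime) (h2 : p ≠ 2) (m : ℕ) : Fx.{u} p m := by
  induction m with
  | zero => exact fun _ _ _ _ _ h => absurd h (Nat.not_lt_zero _)
  | succ m ih =>
  intro G _ _ H P hm hs hn hP hc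
  have sub : ∀ K, K < H → P ≤ N(K) → ⁅K, P⁆ ⊓ C(P) ≤ Sc H P := fun K h n =>
    (ih G K P (by have := card_lt h; omega) (hs.mono h.le) n hP (hc.mono_left h.le)).trans (Sc_mono h.le)
  by_cases e : ⁅H, P⁆ = H
  swap
  · exact coprime_commGid hn hc ▸ sub _ ((comm_le_left hn).lt_of_ne e) (norm_comm_right H P)
  rw [e]
  have quo : ∀ N, N ≤ H → N ≠ ⊥ → H ⊔ P ≤ N(N) → H ⊓ C(P) ≤ Sc H P ⊔ N ⊓ C(P) := fun N h1 h2 h3 => by
    have HN := le_sup_left.trans h3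
    have PN := le_sup_right.trans h3
    have SN := Sc_le.trans (inf_le_left.trans HN : H ⊓ C(P) ≤ _)
    have c := hc.mono_left h1
    have l := ih _ (H /ₛ N) (P /ₛ N) (by have := card_quo_lt ⟨h1, HN⟩ h2; omega) (hs.quo N) (quo_norms N hn)
      ((card_quo_of_cop PN c).trans hP) (hc.quo N)
    rw [← quo_comm HN PN, e, ← coprime_quotient_cent h1 PN c (hs.mono h1)] at l
    have := (quo_le_quo (inf_le_left.trans HN) SN).1 (l.trans (iSup₂_le fun g hg => by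
      obtain ⟨g, hg', n, rfl⟩ := mem_quo.1 hg
      rw [Tc, ← quo_cj n, ← quo_sup PN (cj_le_of_mem n PN), ← quo_inf_of_le' h1, ← Tc,
        ← coprime_norm_quotient_cent (Tc_nrm hn) PN c (hs.mono h1)]
      exact quo_mono N (le_Sc hg')))
    rw [sup_comm, inf_comm N, ← inf_sup_right SN (Sc_le.trans inf_le_right)]
    exact le_inf inf_le_right this
  by_contra ne
  have key : ∀ N, N ≤ H → N ≠ ⊥ → H ⊔ P ≤ N(N) → ¬ N ⊓ C(P) ≤ Sc H P := fun N h1 h2 h3 c =>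
    ne ((quo N h1 h2 h3).trans (sup_le le_rfl c))
  obtain ⟨U, UH, mU⟩ := exists_minNml (K := H) (M := H ⊔ P) (fun c => ne (by rw [c, bot_inf_eq]; exact bot_le))
    (nml_sup_left hn).nrm
  have qU := quo U UH mU.ne mU.nrm
  have US : U ⊓ C(P) ≤ N(Sc H P) := (inf_le_inf_right _ UH).trans Sc_nrm
  obtain ⟨r, hr, aU⟩ := mU.abelem (hs.mono UH)
  have dD : ⁅H ⊓ C(P), H ⊓ C(P)⁆ ≤ Sc H P := (der_mono qU).trans ((der_sup_le US).trans
    (sup_le le_rfl ((ab_iff_der.1 (aU.ab.mono inf_le_left)).le.trans bot_le)))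
  refine key U UH mU.ne mU.nrm ?_
  by_cases nc : H ≤ C(U)
  swap
  · exact caseA hp h2 hP hs hn hc e sub mU UH (fun N h1 h3 c => by_contra fun h2 => key N h1 h2 h3
      (le_of_coprime_relIndex ((inf_le_inf_right _ h1).trans qU) (sup_le (le_nrm _) US) (by
        rw [relIndex_sup_norm US]
        exact (c.mono inf_le_left inf_le_left).coprime_dvd_right (relIndex_dvd _ _)))) dD nc
  obtain ⟨R, sy, PR⟩ := coprime_Sylow_exists r hn hc (.inl hs)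
  by_cases RH : R = H
  · exact absurd (caseC hp h2 hP hn hc e (RH ▸ sy.pi.nil) key) ne
  have d := coprime_cent_prod PR (hc.mono_left sy.le) sy.pi.nil.sol
  have n : R ⊓ C(P) ≤ N(⁅R, P⁆) := inf_le_left.trans (norm_comm_left R P)
  have l : U ⊓ C(P) ≤ C(P) ⊓ (⁅R, P⁆ ⊔ ⁅R ⊓ C(P), R ⊓ C(P)⁆) := le_inf inf_le_right ((le_inf (le_inf
    (inf_le_left.trans (sy.ge_of_nml (aU.pGrp hr) ⟨UH, le_sup_left.trans mU.nrm⟩)) ((inf_le_inf_right _ (UH.trans e.ge)).trans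
    (coprime_cent_comm_le_der hn hc))) (inf_le_left.trans (centsC nc))).trans (sy.isHall.inf_der_center.trans
      ((der_mono d.sup.ge).trans (der_sup_le n))))
  rw [inf_sup_right ((der_le _).trans n) ((der_le _).trans inf_le_right), inf_comm C(P)] at l
  exact l.trans (sup_le (sub R (sy.le.lt_of_ne RH) PR) ((der_mono (inf_le_inf_right _ sy.le)).trans dD))

end Cfsg.Agent.FV
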