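import Mathlib
import Cfsg.Agent.H27.Frob2

/-! Normal subgroups whose non-central elements have maximal centralisers. -/

set_option autoImplicit false
set_option linter.unusedSectionVars false

namespace Cfsg.Agent.FV

open Subgroup Cfsg Cfsg.Agent.FT

universe u

variable {G : Type u} [Group G] [Finite G] {N W L U : Subgroup G} {x y s t : G} {p q r : ℕ}
  {π : Set ℕ}

/-- every element of `N` outside `Z(N)` has a maximal centraliser. -/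
structure MxC (N : Subgroup G) : Prop where
  nml : N ⊴ ⊤
  co : ∀ x ∈ N, x ∉ C(N) → IsCoatom C[x]

theorem p'_of_ne (hx : PiElt {q} x) (h : q ≠ p) : PiElt {p}ᶜ x := hx.pi h

theorem MxC.cj_not (h : MxC N) (hx : x ∉ C(N)) (g : G) : g * x * g⁻¹ ∉ C(N) := fun e =>
  hx (by simpa [mul_assoc] using conj_mem' (norms_cent h.nml.nrm (mem_top g)) e)

theorem MxC.eq_of_le (h : MxC N) (hx : x ∈ N) (hx' : x ∉ C(N)) (hy : y ∈ N) (hy' : y ∉ C(N))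
    (hle : C[x] ≤ C[y]) : C[x] = C[y] :=
  (((h.co x hx hx').le_iff.1 hle).resolve_left (h.co y hy hy').1).symm

theorem MxC.cen_eq (h : MxC N) (hx : x ∈ N) (hx' : x ∉ C(N)) (hy : y ∈ N) (hy' : y ∉ C(N))
    (h1 : PiElt π x) (h2 : PiElt πᶜ y) (e : x * y = y * x) : C[x] = C[y] := by
  have a1 := constt_mul_of_pi h1 h2 e
  have a2 := constt_mul_of_pi' h1 h2 e
  have hz : x * y ∉ C(N) := fun k => hx' (a1 ▸ constt_mem π k)
  have b1 : C[x * y] ≤ C[x] := by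
    have := cen1_le_cen1_constt π (x * y); rwa [a1] at this
  have b2 : C[x * y] ≤ C[y] := by
    have := cen1_le_cen1_constt πᶜ (x * y); rwa [a2] at this
  rw [← h.eq_of_le (mul_mem hx hy) hz hx hx' b1, h.eq_of_le (mul_mem hx hy) hz hy hy' b2]

theorem MxC.sup_top (h : MxC N) (hx : x ∈ N) (hx' : x ∉ C(N)) (hL : ¬ L ≤ C[x]) :
    L ⊔ C[x] = ⊤ :=
  ((h.co x hx hx').le_iff.1 (le_sup_right (a := L))).resolve_right fun e =>
    hL (le_sup_left.trans e.le)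

theorem MxC.nrm (h : MxC N) (hx : x ∈ N) (hx' : x ∉ C(N)) (hU : C[x] ≤ N(U)) :
    N(U) = ⊤ ∨ N(U) = C[x] := (h.co x hx hx').le_iff.1 hU

theorem le_cen_of (hL : L ≤ N) (h : ∀ x ∈ N, x ∉ C(N) → L ≤ C[x]) : L ≤ C(N) := by
  refine le_cen_iff_forall.2 fun x hx => ?_
  by_cases k : x ∈ C(N)
  · exact hL.trans (le_cen1.2 k)
  · exact h x hx k

/-- Dedekind: `M = L (M ∩ C(x))`. -/
theorem MxC.dedekind (h : MxC N) (hx : x ∈ N) (hx' : x ∉ C(N)) (hL : L ⊴ ⊤) (h1 : ¬ L ≤ C[x])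
    {M : Subgroup G} (hM : L ≤ M) : M = L ⊔ (M ⊓ C[x]) := by
  rw [← inf_sup_left (le_top.trans hL.nrm) hM, h.sup_top hx hx' h1, inf_top_eq]

theorem MxC.phi (h : MxC N) (hW : W ⊴ ⊤) (hle : W ≤ N) : Phi W ≤ C(N) := by
  refine le_cen_of ((Phi_le W).trans hle) fun x hx hx' => ?_
  by_contra k
  have e := h.dedekind hx hx' hW.Phi k (Phi_le W)
  have := Phi_nongen (inf_le_left : W ⊓ C[x] ≤ W) e.le
  exact k ((Phi_le W).trans (inf_eq_left.1 this))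

theorem MxC.cents (h : MxC N) (hx : x ∈ N) (hx' : x ∉ C(N)) (h1 : PiElt π x) (hy : y ∈ N ⊓ C[x])
    (h2 : PiElt πᶜ y) : N ⊓ C[x] ≤ C[y] := by
  by_cases k : y ∈ C(N)
  · exact inf_le_left.trans (le_cen1.2 k)
  · exact inf_le_right.trans (h.cen_eq hx hx' hy.1 k h1 h2 (mem_cen1.1 hy.2).symm).le

theorem MxC.cents' (h : MxC N) (hx : x ∈ N) (hx' : x ∉ C(N)) (h1 : PiElt π x) {R : Subgroup G}
    (hR : R ≤ N ⊓ C[x]) (h2 : PiGrp πᶜ R) : N ⊓ C[x] ≤ C(R) :=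
  le_cen_iff_forall.2 fun _ hy => h.cents hx hx' h1 (hR hy) (h2.piElt hy)

theorem MxC.nil (h : MxC N) (hx : x ∈ N) (hx' : x ∉ C(N)) (h1 : PiElt {p} x) : Nil (N ⊓ C[x]) := by
  refine nil_of_forall_syl fun r R hr hR => ?_
  by_cases e : r = p
  · subst e
    refine le_of_forall_syl fun q hq _ => ?_
    by_cases e : q = r
    · exact ⟨R, e ▸ hR, le_nrm R⟩
    · obtain ⟨Q, hQ⟩ := exists_syl q (N ⊓ C[x])
      exact ⟨Q, hQ, cents_norm (centsC (hR.le.trans (h.cents' hx hx' h1 hQ.le (hQ.pi.pi e))))⟩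
  · exact cents_norm (h.cents' hx hx' h1 hR.le (hR.pi.pi e))

theorem syl_of_cent (hL : L ≤ N) (h : ∀ r, r.Prime → r ≠ p → ∀ y ∈ L, PiElt {r} y → y ∈ C(N)) :
    L ≤ O[{p}](L) ⊔ Z(N) := by
  obtain ⟨S, hS⟩ := exists_syl p L
  have key : ∀ K : Subgroup G, S ≤ K → Z(N) ≤ K → L ≤ K := fun K h1 h2 =>
    le_of_forall_syl fun q hq _ => by
      by_cases e : q = p
      · exact ⟨S, e ▸ hS, h1⟩
      · obtain ⟨Q, hQ⟩ := exists_syl q L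
        exact ⟨Q, hQ, fun y hy => h2 ⟨hL (hQ.le hy), h q hq e y (hQ.le hy) (hQ.pi.piElt hy)⟩⟩
  have hn : L ≤ N(S) := key _ (le_nrm S) (cents_norm (center_le_cen (hS.le.trans hL)))
  rw [hS.pcore_eq hn]
  exact key _ le_sup_left le_sup_right

/-- Glauberman–Thompson step. -/
theorem MxC.npc (h : MxC N) (h0 : O[{p}](N) ≤ C(N)) (hp : p.Prime) (hp2 : p ≠ 2) (hx : x ∈ N)
    (hx' : x ∉ C(N)) (h1 : PiElt {p} x) : NPC p N := by
  haveI := Fact.mk hp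
  have hn := h.nil hx hx' h1
  have hS := hn.pcore_hall {p}
  set S := O[{p}](N ⊓ C[x]) with hSd
  have hxS : x ∈ S := hn.mem_pcore ⟨hx, self_mem_cen1 x⟩ h1
  have hM : C[x] ≤ N(S) := norms_pcore _ (normsI (le_top.trans h.nml.nrm) (le_nrm _))
  have key : ∀ U : Subgroup G, U ≤ S → N(S) ≤ N(U) → x ∈ U → N(U) = C[x] := fun U a b c =>
    (h.nrm hx hx' (hM.trans b)).resolve_left fun e =>
      hx' (h0 (pcore_max (hS.pi.mono a) ⟨a.trans (hS.le.trans inf_le_left), le_top.trans e.ge⟩ c))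
  have hS' : Syl p S N := hS.syl_of_nrm_le inf_le_left (by rw [key S le_rfl le_rfl hxS])
  have hP' := (syl_iff_sylIn hp).1 hS'
  have hZ := key (H5b.ZJn 0 S) ((H5b.isFn_ZJn 0).le _) ((H5b.isFn_ZJn 0).N_le _)
    (H5b.center_le_ZJn_zero S ⟨hxS, le_cen1.1 (hS.le.trans inf_le_right)⟩)
  refine (npc_iff hp).2 (H5b.hasNPC_of_ZJn_sub hp2 (Or.inl rfl) hP' ?_)
  refine (npc_iff hp).1 ?_
  have : N ⊓ N(H5b.ZJn 0 S) = N ⊓ C[x] := by rw [hZ]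
  exact this ▸ hn.npc p

theorem MxC.exists_pcore (h : MxC N) (h1 : ¬ N ≤ C(N)) : ∃ p, p.Prime ∧ ¬ O[{p}](N) ≤ C(N) := by
  by_contra k
  push Not at k
  obtain ⟨L, -, ⟨hL, hLN, hL'⟩, hmin⟩ := exists_min (fun L => L ⊴ ⊤ ∧ L ≤ N ∧ ¬ L ≤ C(N))
    ⟨h.nml, le_rfl, h1⟩
  have key : ∀ p, p.Prime → ¬ ∀ r, r.Prime → r ≠ p → ∀ y ∈ L, PiElt {r} y → y ∈ C(N) :=
    fun p hp a => hL' ((syl_of_cent hLN a).trans (sup_le
      ((pcore_mono_nml _ (hL.mono hLN le_top)).trans (k p hp)) inf_le_right))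
  refine key 2 Nat.prime_two fun p hp hp2 x hx hxp => ?_
  by_contra hx'
  have hN := h.npc (k p hp) hp hp2 (hLN hx) hx' hxp
  have hK : L ⊓ O[{p}ᶜ](N) ≤ C(N) := by
    by_contra a
    have e := hmin _ ⟨hL.inf (h.nml.pcore _), inf_le_left.trans hLN, a⟩ inf_le_left
    have : x ∈ O[{p}ᶜ](N) := (e.ge hx).2
    exact hx' (hxp.eq_one_of_mem (pcore_pi _ _) this ▸ one_mem _)
  exact key p hp fun r hr e y hy hy' =>
    hK ⟨hy, hN.hall.mem_of_nml (pcore_nrm _ _) (hLN hy) (p'_of_ne hy' e)⟩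

theorem MxC.conj_into (h : MxC N) (hW : W ⊴ ⊤) (hWN : W ≤ N) (hWp : PGrp p W) (hx : x ∈ N)
    (hx' : x ∉ C(N)) (h1 : ¬ W ≤ C[x]) (hs : s ∈ N) (hq : PiElt {q} s) (e : q ≠ p) :
    ∃ n ∈ N, n * s * n⁻¹ ∈ C[x] := by
  have a := mulEq_of_sup (inf_le_right.trans (le_top.trans hW.nrm)) (h.dedekind hx hx' hW h1 hWN).symm
  have b : PiNat {q}ᶜ ((N ⊓ C[x]).relIndex N) := by
    rw [a.relIndex_right]
    exact PiNat.of_dvd (hWp.pi (π := {q}ᶜ) e.symm) (relIndex_dvd _ _)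
  obtain ⟨Q, hQ, hQ'⟩ := (p'nat_relIndex_iff inf_le_left).1 b
  obtain ⟨n, hn, hn'⟩ := hQ.syl_elt hs hq
  exact ⟨n, hn, (hQ' hn').2⟩

theorem MxC.inf_le (h : MxC N) (hW : W ⊴ ⊤) (hWN : W ≤ N) (hWp : PGrp p W) (ht : t ∈ N)
    (ht' : t ∉ C(N)) (hq : PiElt {p}ᶜ t) (h1 : ¬ W ≤ C[t]) : W ⊓ C[t] ≤ C(N) := by
  intro x hx
  by_contra hx'
  have hlt : W ⊓ C[t] < W := inf_lt_left.2 h1
  have hn : N(W ⊓ C[t]) = ⊤ := (h.nrm ht ht' (normsI (le_top.trans hW.nrm) (le_nrm _))).resolve_right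
    fun e => by
      have := hWp.lt_subnorm hlt
      rw [e] at this
      exact this.ne rfl
  have e1 : ∀ g, C[g * x * g⁻¹] = C[t] := fun g => by
    have a : g * x * g⁻¹ ∈ W ⊓ C[t] := conj_mem (hn ▸ mem_top g) hx
    exact h.cen_eq (hWN a.1) (h.cj_not hx' g) ht ht' (hWp.piElt a.1) hq (mem_cen1.1 a.2)
  have e2 : ∀ g, C[g * t * g⁻¹] = C[t] := fun g => by
    have a := e1 1
    rw [one_mul, inv_one, mul_one] at a
    rw [← cj_cen1, ← a, cj_cen1, e1 g, a]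
  refine h1 fun w hw => ?_
  have a : w * t * w⁻¹ ∈ C[t] := e2 w ▸ self_mem_cen1 _
  have b : PiElt {p}ᶜ (w * t * w⁻¹ * t⁻¹) := (hq.conj w).mul hq.inv (mem_cen1.1 (by rwa [cen1_inv]))
  have c : w * t * w⁻¹ * t⁻¹ ∈ W := by
    have := mul_mem hw (hW.conj_mem (mem_top t) (inv_mem hw))
    simpa only [mul_assoc] using this
  have d := b.eq_one_of_mem' hWp c
  rw [mem_cen1]
  calc w * t = w * t * w⁻¹ * t⁻¹ * t * w := by group
    _ = t * w := by rw [d, one_mul]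

theorem MxC.exists_t (h : MxC N) (hW : W ⊴ ⊤) (hWN : W ≤ N) (hWp : PGrp p W) (hW' : ¬ W ≤ C(N))
    (ht : t ∈ N) (ht' : t ∉ C(N)) (hq : PiElt {q} t) (e : q ≠ p) :
    ∃ r s, r.Prime ∧ r ≠ p ∧ s ∈ N ∧ s ∉ C(N) ∧ PiElt {r} s ∧ ¬ W ≤ C[s] := by
  by_contra k
  push Not at k
  obtain ⟨x, hx, hx'⟩ := SetLike.not_le_iff_exists.1 hW'
  have k' : ∀ r s, r.Prime → r ≠ p → s ∈ N → PiElt {r} s → s ∈ C[x] := fun r s a b c d => by
    by_cases f : s ∈ C(N)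
    · exact cen_le_cen1 (hWN hx) f
    · exact cen1_comm.1 (k r s a b c f d hx)
  have hqp : q.Prime := by
    refine hq.zpowers.prime (zpowers_ne_bot' fun a => ht' (a ▸ one_mem _))
  refine hx' (le_cen1.1 (le_of_forall_pElt fun r hr u hu hu' => ?_))
  by_cases f : r = p
  swap
  · exact k' r u hr f hu hu'
  subst f
  by_contra a
  have hu'' : u ∉ C(N) := fun b => a (cen_le_cen1 (hWN hx) b)
  obtain ⟨n, hn, hn'⟩ := h.conj_into hW hWN hWp hu hu'' (fun b => a (cen1_comm.1 (b hx))) ht hq e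
  have b : n * t * n⁻¹ ∈ N := mul_mem (mul_mem hn ht) (inv_mem hn)
  have := h.cen_eq (hWN hx) hx' b (h.cj_not ht' n) (hWp.piElt hx) (p'_of_ne (hq.conj n) e)
    (mem_cen1.1 (cen1_comm.1 (k' q _ hqp e b (hq.conj n))))
  exact a (this ▸ cen1_comm.1 hn')

theorem MxC.syl (h : MxC N) (ht : t ∈ N) (ht' : t ∉ C(N)) (hq : PiElt {q} t) (e : q ≠ p)
    (h1 : ¬ O[{p}](N) ≤ C[t]) : Syl p O[{p}](N) N := by
  have hW : O[{p}](N) ⊴ ⊤ := h.nml.pcore _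
  have a := h.dedekind ht ht' hW h1 (pcore_le _ _)
  obtain ⟨S, hS⟩ := exists_syl p (N ⊓ C[t])
  have hc : N ⊓ C[t] ≤ C(S) := h.cents' ht ht' hq hS.le (hS.pi.pi e.symm)
  have hn : S ≤ N(O[{p}](N)) := le_top.trans hW.nrm
  have hle : S ≤ O[{p}](N) := le_sup_right.trans (pcore_max ((pcore_pi _ _).sup hS.pi hn)
    ⟨sup_le (pcore_le _ _) (hS.le.trans inf_le_left), a.le.trans (sup_le (norms_of_le le_sup_left)
      (normsY (le_top.trans hW.nrm) (cents_norm hc)))⟩)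
  refine ⟨pcore_le _ _, pcore_pi _ _, ?_⟩
  rw [(mulEq_of_sup (le_top.trans hW.nrm) a.symm).relIndex_left]
  exact hS.relIndex_of_le hle

theorem exists_root {H : Subgroup G} (hq : PiElt {q} t) (ht : t ∉ H) :
    ∃ s ∈ ⟪t⟫, s ∉ H ∧ s ^ q ∈ H := by
  obtain ⟨k, hk⟩ := hq.exists_pow
  have : t ^ q ^ k ∈ H := hk ▸ one_mem _
  clear hk
  induction k with
  | zero => exact absurd (by simpa using this) ht
  | succ k ih =>
    by_cases a : t ^ q ^ k ∈ H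
    · exact ih a
    · exact ⟨_, pow_mem (mem_zpowers t) _, a, by rwa [← pow_mul, ← pow_succ]⟩

theorem MxC.struct (h : MxC N) : (∃ p, p.Prime ∧ N ≤ O[{p}](N) ⊔ Z(N)) ∨
    ∃ p q t, p.Prime ∧ q.Prime ∧ q ≠ p ∧ ¬ O[{p}](N) ≤ C(N) ∧ t ∈ N ∧ t ∉ C(N) ∧ PiElt {q} t ∧
      t ^ q ∈ C(N) ∧ N ≤ O[{p}](N) ⊔ Z(N) ⊔ ⟪t⟫ ∧ O[{p}](N) ⊓ C[t] ≤ C(N) := by
  by_cases h0 : N ≤ C(N)
  · exact Or.inl ⟨2, Nat.prime_two, le_sup_of_le_right (le_inf le_rfl h0)⟩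
  obtain ⟨p, hp, hW'⟩ := h.exists_pcore h0
  by_cases h1 : ∀ r, r.Prime → r ≠ p → ∀ y ∈ N, PiElt {r} y → y ∈ C(N)
  · exact Or.inl ⟨p, hp, syl_of_cent le_rfl h1⟩
  right
  push Not at h1
  obtain ⟨q₀, -, e₀, t₀, a₀, b₀, c₀⟩ := h1
  have hW : O[{p}](N) ⊴ ⊤ := h.nml.pcore _
  have hWN := pcore_le {p} N
  have hWp := pcore_pi {p} N
  obtain ⟨q, t₁, hq, e, ht, ht', hqt, h1⟩ := h.exists_t hW hWN hWp hW' a₀ c₀ b₀ e₀
  have hS := h.syl ht ht' hqt e h1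
  set W := O[{p}](N) with hWd
  obtain ⟨x, hx, hx'⟩ := SetLike.not_le_iff_exists.1 hW'
  have k1 : ∀ r s, r ≠ p → s ∈ N → s ∉ C(N) → PiElt {r} s → ¬ W ≤ C[s] := fun r s a b c d f => by
    obtain ⟨n, hn, hn'⟩ := h.conj_into hW hWN hWp ht ht' h1 b d a
    have f' : x ∈ C[n * s * n⁻¹] := by
      rw [← cj_cen1, mem_cj]
      exact f (conj_mem' (hW.nrm (mem_top n)) hx)
    have := h.cen_eq (hWN hx) hx' (mul_mem (mul_mem hn b) (inv_mem hn)) (h.cj_not c n)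
      (hWp.piElt hx) (p'_of_ne (d.conj n) a) (mem_cen1.1 f')
    exact hx' (h.inf_le hW hWN hWp ht ht' (p'_of_ne hqt e) h1
      ⟨hx, cen1_comm.1 (this ▸ cen1_comm.1 hn')⟩)
  have k2 : N ⊓ C[x] ≤ W ⊔ Z(N) := le_of_forall_pElt fun r hr y hy hy' => by
    by_cases a : r = p
    · exact mem_sup_left (hS.mem_of_nml (pcore_nrm _ _) hy.1 (a ▸ hy'))
    by_cases b : y ∈ C(N)
    · exact mem_sup_right ⟨hy.1, b⟩
    · exact absurd (h.inf_le hW hWN hWp hy.1 b (p'_of_ne hy' a) (k1 r y a hy.1 b hy')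
        ⟨hx, cen1_comm.1 hy.2⟩) hx'
  obtain ⟨t, htz, ht1, ht2⟩ := exists_root hqt ht'
  have htN : t ∈ N := zpowers_le.2 ht htz
  have htq := hqt.of_mem_zpowers htz
  have k3 := k1 q t e htN ht1 htq
  refine ⟨p, q, t, hp, hq, e, hW', htN, ht1, htq, ht2, ?_,
    h.inf_le hW hWN hWp htN ht1 (p'_of_ne htq e) k3⟩
  have hK : W ⊔ Z(N) ⊴ ⊤ := hW.sup h.nml.center
  have hL : W ⊔ Z(N) ⊔ ⟪t⟫ ⊴ ⊤ := ⟨le_top, (h.sup_top htN ht1 k3).ge.trans (sup_le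
    (norms_of_le (le_sup_left.trans le_sup_left))
    (normsY (le_top.trans hK.nrm) (norms_zpowers_of_cen1 le_rfl)))⟩
  have hLN : W ⊔ Z(N) ⊔ ⟪t⟫ ≤ N := sup_le (sup_le hWN inf_le_left) (zpowers_le.2 htN)
  have k4 : ¬ W ⊔ Z(N) ⊔ ⟪t⟫ ≤ C[x] := fun a =>
    hx' (h.inf_le hW hWN hWp htN ht1 (p'_of_ne htq e) k3
      ⟨hx, cen1_comm.1 (a (mem_sup_right (mem_zpowers t)))⟩)
  exact (h.dedekind (hWN hx) hx' hL k4 hLN).le.trans (sup_le le_rfl (k2.trans le_sup_left))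

theorem MxC.quo (h : MxC N) {X : Type*} [Group X] [Finite X] (f : N →* X)
    (hf : Function.Surjective f) (hk : pker f = Z(N)) :
    (∃ p, p.Prime ∧ Abelem p (⊤ : Subgroup X)) ∨ ∃ (p q : ℕ) (K : Subgroup X) (t : G), p.Prime ∧
      q.Prime ∧ q ≠ p ∧ Abelem p K ∧ t ∈ N ∧ t ∉ C(N) ∧ #⟪pfun f t⟫ = q ∧ Frob ⊤ K ⟪pfun f t⟫ := by
  have htop : pmap f N = ⊤ := by rw [pmap_dom, MonoidHom.range_eq_top.2 hf]
  have hab : ∀ p, p.Prime → Abelem p (pmap f O[{p}](N)) := fun p hp => by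
    have hW : O[{p}](N) ⊴ ⊤ := h.nml.pcore _
    have a : Phi O[{p}](N) ≤ pker f := hk ▸ le_inf ((Phi_le _).trans (pcore_le _ _))
      (h.phi hW (pcore_le _ _))
    obtain ⟨b, c⟩ := (abelem_quo_iff (Phi_nrm _)).1 (pcore_pi {p} N).abelem_quo_Phi
    refine abelem_iff.2 ⟨(ab_pmap_iff (pcore_le _ _)).2 (b.trans a), fun y hy => ?_⟩
    obtain ⟨x, hx, hx', rfl⟩ := mem_pmap.1 hy
    rw [← pfun_pow f hx', pfun_eq_one_iff (pow_mem hx' _)]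
    exact a (c x hx)
  have hsup : ∀ p, pmap f (O[{p}](N) ⊔ Z(N)) = pmap f O[{p}](N) := fun p => by
    rw [← hk, sup_comm, pmap_ker_sup f (pcore_le _ _)]
  rcases h.struct with ⟨p, hp, h1⟩ | ⟨p, q, t, hp, hq, e, hW', ht, ht', hqt, htq, h1, h2⟩
  · refine Or.inl ⟨p, hp, (hab p hp).mono ?_⟩
    rw [← htop, ← hsup]
    exact pmap_mono f h1
  right
  have hWN := pcore_le {p} N
  have hu : pfun f t ≠ 1 := fun a => ht' (hk ▸ (pfun_eq_one_iff ht).1 a).2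
  have hc : #⟪pfun f t⟫ = q := by
    haveI := Fact.mk hq
    rw [card_zpowers']
    refine orderOf_eq_prime ?_ hu
    rw [← pfun_pow f ht, pfun_eq_one_iff (pow_mem ht _), hk]
    exact ⟨pow_mem ht _, htq⟩
  refine ⟨p, q, _, t, hp, hq, e, hab p hp, ht, ht', hc, ?_⟩
  have hn : pmap f O[{p}](N) ⊴ ⊤ := htop ▸ (pcore_nml _ _).pmap f
  have hs : pmap f O[{p}](N) ⊔ ⟪pfun f t⟫ = ⊤ := by
    rw [eq_top_iff, ← htop, ← hsup, ← pmap_zpowers f ht,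
      ← pmap_sup f (sup_le hWN inf_le_left) (zpowers_le.2 ht)]
    exact pmap_mono f h1
  rw [← hs]
  refine frob_sup (semiReg_of_prime (hc ▸ hq) ?_) (le_top.trans hn.nrm)
    (fun a => hW' (((pmap_eq_bot hWN).1 a).trans (hk ▸ inf_le_right))) (zpowers_ne_bot' hu)
  rw [cen_zpowers, eq_bot_iff]
  rintro y ⟨hy, hy'⟩
  obtain ⟨w, hw, hwN, rfl⟩ := mem_pmap.1 hy
  have c1 : w * t * w⁻¹ * t⁻¹ ∈ O[{p}](N) := by
    have := mul_mem hw ((pcore_nml {p} N).conj_mem ht (inv_mem hw))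
    simpa only [mul_assoc] using this
  have c2 : w * t * w⁻¹ * t⁻¹ ∈ C(N) := by
    have : w * t * w⁻¹ * t⁻¹ ∈ pker f := by
      rw [← pfun_eq_one_iff (hWN c1), pfun_mul f (mul_mem (mul_mem hwN ht) (inv_mem hwN)) (inv_mem ht),
        pfun_conj f hwN ht, pfun_inv f ht, mem_cen1.1 hy']
      group
    exact (hk ▸ this).2
  have c3 : w * t * w⁻¹ ∈ C[t] := by
    have := mul_mem (cen_le_cen1 ht c2) (self_mem_cen1 t)
    simpa using this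
  have b : PiElt {p}ᶜ (w * t * w⁻¹ * t⁻¹) := ((p'_of_ne hqt e).conj w).mul (p'_of_ne hqt e).inv
    (mem_cen1.1 (by rwa [cen1_inv]))
  have d := b.eq_one_of_mem' (pcore_pi _ _) c1
  have c4 : w ∈ C[t] := by
    rw [mem_cen1]
    calc w * t = w * t * w⁻¹ * t⁻¹ * t * w := by group
      _ = t * w := by rw [d, one_mul]
  rw [mem_bot, pfun_eq_one_iff hwN, hk]
  exact ⟨hwN, h2 ⟨hw, c4⟩⟩

end Cfsg.Agent.FV
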